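import Mathlib
import Cfsg.Prelude.Def_Blocks
import Cfsg.Agent.Lib.Helper21.Loc2

/-!
# The residue field of the local ring at `M` (helper82)

`exists_residue_field`: a field `F` and a map `res : ℂ → F` which is a ring homomorphism on
the local ring at `M` with kernel the local ideal.
-/

set_option autoImplicit false

namespace Cfsg.Agent.Lib.Helper82

open Cfsg Cfsg.Agent.Lib.Helper21

section Res

variable {p : ℕ} {M : Ideal AlgInt}

/-- The local ring at `M` as a subring of `ℂ`. -/
def locSubring (hM : IsPModular p M) : Subring ℂ where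
  carrier := {z | MemLocalRing M z}
  mul_mem' := fun ha hb => locRing_mul hM ha hb
  one_mem' := locRing_one hM
  add_mem' := fun ha hb => locRing_add hM ha hb
  zero_mem' := locRing_zero hM
  neg_mem' := fun ha => locRing_neg ha

theorem mem_locSubring (hM : IsPModular p M) (z : ℂ) :
    z ∈ locSubring hM ↔ MemLocalRing M z := Iff.rfl

/-- The maximal ideal of the local ring at `M`. -/
def locMaxIdeal (hM : IsPModular p M) : Ideal (locSubring hM) where
  carrier := {z | MemLocalIdeal M (z : ℂ)}
  add_mem' := fun ha hb => locIdeal_add hM ha hb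
  zero_mem' := locIdeal_zero hM
  smul_mem' := fun c _ hx => locIdeal_mul_left hM c.2 hx

theorem mem_locMaxIdeal (hM : IsPModular p M) (z : locSubring hM) :
    z ∈ locMaxIdeal hM ↔ MemLocalIdeal M (z : ℂ) := Iff.rfl

theorem locMaxIdeal_isMaximal (hM : IsPModular p M) : (locMaxIdeal hM).IsMaximal := by
  rw [Ideal.isMaximal_iff]
  refine ⟨fun h => locIdeal_one_not hM h, fun J x _ hxI hxJ => ?_⟩
  have hx0 : (x : ℂ) ≠ 0 := fun h0 => hxI (by
    rw [mem_locMaxIdeal, h0]
    exact locIdeal_zero hM)
  have hinv : MemLocalRing M ((x : ℂ)⁻¹) := locRing_inv hM x.2 hxI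
  have h1 : (⟨(x : ℂ)⁻¹, hinv⟩ : locSubring hM) * x = 1 :=
    Subtype.ext (inv_mul_cancel₀ hx0)
  rw [← h1]
  exact J.mul_mem_left _ hxJ

/-- The residue field of the local ring at `M`, with the residue map extended by zero. -/
theorem exists_residue_field (hM : IsPModular p M) :
    ∃ (F : Type) (_ : Field F) (res : ℂ → F),
      (∀ x y, MemLocalRing M x → MemLocalRing M y → res (x + y) = res x + res y) ∧
      (∀ x y, MemLocalRing M x → MemLocalRing M y → res (x * y) = res x * res y) ∧
      res 1 = 1 ∧ (∀ x, MemLocalRing M x → (res x = 0 ↔ MemLocalIdeal M x)) := by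
  classical
  haveI := locMaxIdeal_isMaximal hM
  refine ⟨locSubring hM ⧸ locMaxIdeal hM, Ideal.Quotient.field _,
    fun z => if h : MemLocalRing M z then Ideal.Quotient.mk (locMaxIdeal hM) ⟨z, h⟩ else 0,
    ?_, ?_, ?_, ?_⟩
  · intro x y hx hy
    simp only [dif_pos hx, dif_pos hy, dif_pos (locRing_add hM hx hy)]
    rw [← map_add]
    rfl
  · intro x y hx hy
    simp only [dif_pos hx, dif_pos hy, dif_pos (locRing_mul hM hx hy)]
    rw [← map_mul]
    rfl
  · simp only [dif_pos (locRing_one hM)]
    rw [← map_one (Ideal.Quotient.mk (locMaxIdeal hM))]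
    rfl
  · intro x hx
    simp only [dif_pos hx]
    rw [Ideal.Quotient.eq_zero_iff_mem]
    rfl

end Res

section ResLemmas

variable {p : ℕ} {M : Ideal AlgInt} {F : Type} [Field F] (res : ℂ → F)

theorem res_zero (hM : IsPModular p M)
    (hzero : ∀ x, MemLocalRing M x → (res x = 0 ↔ MemLocalIdeal M x)) : res 0 = 0 :=
  (hzero 0 (locRing_zero hM)).mpr (locIdeal_zero hM)

theorem res_sum (hM : IsPModular p M)
    (hadd : ∀ x y, MemLocalRing M x → MemLocalRing M y → res (x + y) = res x + res y)
    (hzero : ∀ x, MemLocalRing M x → (res x = 0 ↔ MemLocalIdeal M x))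
    {ι : Type*} (s : Finset ι) (f : ι → ℂ) (hf : ∀ i ∈ s, MemLocalRing M (f i)) :
    res (∑ i ∈ s, f i) = ∑ i ∈ s, res (f i) := by
  classical
  induction s using Finset.induction_on with
  | empty => simp [res_zero res hM hzero]
  | insert a s ha ih =>
    rw [Finset.sum_insert ha, Finset.sum_insert ha,
      hadd _ _ (hf a (Finset.mem_insert_self a s))
        (locRing_sum hM s f fun i hi => hf i (Finset.mem_insert_of_mem hi)),
      ih fun i hi => hf i (Finset.mem_insert_of_mem hi)]

theorem res_natCast (hM : IsPModular p M)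
    (hadd : ∀ x y, MemLocalRing M x → MemLocalRing M y → res (x + y) = res x + res y)
    (hone : res 1 = 1)
    (hzero : ∀ x, MemLocalRing M x → (res x = 0 ↔ MemLocalIdeal M x)) (n : ℕ) :
    res (n : ℂ) = (n : F) := by
  induction n with
  | zero => simp [res_zero res hM hzero]
  | succ n ih =>
    rw [Nat.cast_succ, hadd _ _ (locRing_natCast hM n) (locRing_one hM), ih, hone, Nat.cast_succ]

theorem res_eq_of_sub (hM : IsPModular p M)
    (hadd : ∀ x y, MemLocalRing M x → MemLocalRing M y → res (x + y) = res x + res y)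
    (hzero : ∀ x, MemLocalRing M x → (res x = 0 ↔ MemLocalIdeal M x)) {x y : ℂ}
    (hx : MemLocalRing M x) (hy : MemLocalRing M y) (h : MemLocalIdeal M (x - y)) :
    res x = res y := by
  have h1 : x = (x - y) + y := by ring
  have h2 := hadd (x - y) y (locRing_sub hM hx hy) hy
  rw [← h1, (hzero _ (locRing_sub hM hx hy)).mpr h, zero_add] at h2
  exact h2

theorem res_natCast_ne_zero (hM : IsPModular p M)
    (hzero : ∀ x, MemLocalRing M x → (res x = 0 ↔ MemLocalIdeal M x)) {n : ℕ} (hn : ¬ p ∣ n) :
    res (n : ℂ) ≠ 0 := fun h =>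
  hn ((locIdeal_natCast_iff hM n).mp ((hzero _ (locRing_natCast hM n)).mp h))

end ResLemmas

end Cfsg.Agent.Lib.Helper82
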