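import Mathlib
import Cfsg.Agent.Lib.Helper18.SLMDefs

/-!
# Project SLM (S2332, helper18), piece TRDECB

A non-trivial transvection `1 + a ⊗ φ` of `SL_{k+1}(q)` fixes exactly `q^k - 1` non-zero vectors:
the non-zero vectors of the kernel of the functional `l ↦ φ ⬝ᵥ l`.
-/

set_option autoImplicit false

namespace Cfsg.Agent.Lib.Helper18.SLM

open Matrix

universe u

variable {F : Type u} [Field F] [Fintype F]

/-- the kernel of a non-zero functional on `F^(k+1)` has `q^k` elements -/
theorem trdecb_card_ker {k : ℕ} (f : (Fin (k + 1) → F) →ₗ[F] F) (hf : f ≠ 0) :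
    Nat.card (LinearMap.ker f) = Fintype.card F ^ k := by
  classical
  have hsurj : LinearMap.range f = ⊤ := by
    rw [eq_top_iff]
    intro c _
    obtain ⟨x, hx⟩ : ∃ x, f x ≠ 0 := by
      by_contra hc
      push Not at hc
      exact hf (LinearMap.ext hc)
    refine ⟨(c / f x) • x, ?_⟩
    rw [map_smul, smul_eq_mul, div_mul_cancel₀ c hx]
  have h1 := LinearMap.finrank_range_add_finrank_ker f
  rw [hsurj, finrank_top, Module.finrank_self, Module.finrank_fintype_fun_eq_card,
    Fintype.card_fin] at h1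
  have h2 : Module.finrank F (LinearMap.ker f) = k := by omega
  rw [Nat.card_eq_fintype_card, Module.card_eq_pow_finrank (K := F), h2]

-- piece TRDECB
theorem fix_count {k : ℕ} (g : Matrix.SpecialLinearGroup (Fin (k + 1)) F) (hg : IsTv g)
    (h1 : g ≠ 1) :
    Nat.card {l : Fin (k + 1) → F // l ≠ 0 ∧ (g : Matrix (Fin (k + 1)) (Fin (k + 1)) F) *ᵥ l = l} =
      Fintype.card F ^ k - 1 := by
  classical
  obtain ⟨a, φ, hφa, hgv⟩ := hg
  have ha : a ≠ 0 := by
    rintro rfl
    apply h1
    apply Subtype.ext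
    rw [hgv, Matrix.zero_vecMulVec, add_zero]
    rfl
  have hφ : φ ≠ 0 := by
    rintro rfl
    apply h1
    apply Subtype.ext
    rw [hgv, Matrix.vecMulVec_zero, add_zero]
    rfl
  obtain ⟨f, hf⟩ : ∃ f : (Fin (k + 1) → F) →ₗ[F] F, ∀ l, f l = φ ⬝ᵥ l :=
    ⟨{ toFun := fun l => φ ⬝ᵥ l
       map_add' := fun x y => dotProduct_add φ x y
       map_smul' := fun c x => by simp [dotProduct_smul] }, fun l => rfl⟩
  have hf0 : f ≠ 0 := by
    intro h0
    apply hφ
    funext i
    have h2 := hf (Pi.single i 1)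
    rw [h0, LinearMap.zero_apply, dotProduct_single, mul_one] at h2
    rw [Pi.zero_apply]
    exact h2.symm
  obtain ⟨i, hi⟩ : ∃ i, a i ≠ 0 := by
    by_contra hc
    push Not at hc
    exact ha (funext hc)
  have hfix : ∀ l : Fin (k + 1) → F,
      (g : Matrix (Fin (k + 1)) (Fin (k + 1)) F) *ᵥ l = l ↔ l ∈ LinearMap.ker f := by
    intro l
    rw [LinearMap.mem_ker, hf, hgv, Matrix.add_mulVec, Matrix.one_mulVec, Matrix.vecMulVec_mulVec]
    constructor
    · intro h
      have h2 := congrFun h i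
      rw [Pi.add_apply, Pi.smul_apply, MulOpposite.smul_eq_mul_unop, MulOpposite.unop_op,
        add_eq_left] at h2
      exact (mul_eq_zero.mp h2).resolve_left hi
    · intro h
      rw [h, MulOpposite.op_zero, zero_smul, add_zero]
  have hcard := trdecb_card_ker f hf0
  haveI : Fintype ↥(LinearMap.ker f) := Fintype.ofFinite _
  have e : {l : Fin (k + 1) → F // l ≠ 0 ∧ (g : Matrix (Fin (k + 1)) (Fin (k + 1)) F) *ᵥ l = l}
      ≃ {x : ↥(LinearMap.ker f) // x ≠ 0} :=
    { toFun := fun l => ⟨⟨l.1, (hfix l.1).mp l.2.2⟩, fun h => l.2.1 (congrArg Subtype.val h)⟩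
      invFun := fun x => ⟨x.1.1, fun h => x.2 (Subtype.ext h), (hfix x.1.1).mpr x.1.2⟩
      left_inv := fun l => rfl
      right_inv := fun x => rfl }
  have h3 : Fintype.card {x : ↥(LinearMap.ker f) // x ≠ 0}
      = Fintype.card ↥(LinearMap.ker f) - 1 := by
    rw [Fintype.card_subtype_compl (fun x : ↥(LinearMap.ker f) => x = 0),
      Fintype.card_subtype_eq]
  rw [Nat.card_congr e, Nat.card_eq_fintype_card, h3, ← Nat.card_eq_fintype_card, hcard]

end Cfsg.Agent.Lib.Helper18.SLM
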