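import Mathlib
import Cfsg.Prelude.Def_Classical
import Cfsg.Agent.Lib.Helper18.UEDefs

/-! Project UE (helper18, S2335), piece NPTS: the number of nonzero vectors. -/

set_option autoImplicit false

namespace Cfsg.Agent.Lib.Helper18.UE

open Matrix

universe u

variable {F : Type u} [Field F] {m : ℕ}

-- piece NPTS
theorem card_nonzero [Fintype F] :
    Nat.card {u : Fin m → F | u ≠ 0} = Fintype.card F ^ m - 1 := by
  classical
  have h1 : Nat.card {u : Fin m → F | u ≠ 0} = Fintype.card {u : Fin m → F // ¬ u = 0} := by
    rw [← Nat.card_eq_fintype_card]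
    rfl
  rw [h1, Fintype.card_subtype_compl (fun u : Fin m → F => u = 0), Fintype.card_subtype_eq,
    Fintype.card_fun, Fintype.card_fin]

end Cfsg.Agent.Lib.Helper18.UE
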