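import Mathlib
import Cfsg.Agent.Lib.Helper18.LSDefs
import Cfsg.Agent.Lib.Helper18.WRDefs

/-!
# Project WR (helper18, S2347): piece SPACT (helper82)

The symplectic group preserves the symplectic form `sform`.
-/

set_option autoImplicit false

namespace Cfsg.Agent.Lib.Helper18.WR

open Matrix

universe u

variable {F : Type u} [Field F] {n : ℕ}

theorem spact_transpose_mul (g : symplecticGroup (Fin n) F) :
    (g : Matrix (Fin n ⊕ Fin n) (Fin n ⊕ Fin n) F)ᵀ * J (Fin n) F *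
      (g : Matrix (Fin n ⊕ Fin n) (Fin n ⊕ Fin n) F) = J (Fin n) F := by
  exact SymplecticGroup.mem_iff'.mp g.2

-- piece SPACT
theorem sform_act (g : symplecticGroup (Fin n) F) (u v : Fin n ⊕ Fin n → F) :
    sform (act g u) (act g v) = sform u v := by
  have h1 : ((g : Matrix (Fin n ⊕ Fin n) (Fin n ⊕ Fin n) F) *ᵥ u) ⬝ᵥ
      (J (Fin n) F *ᵥ ((g : Matrix (Fin n ⊕ Fin n) (Fin n ⊕ Fin n) F) *ᵥ v)) =
      u ⬝ᵥ (((g : Matrix (Fin n ⊕ Fin n) (Fin n ⊕ Fin n) F)ᵀ * J (Fin n) F *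
        (g : Matrix (Fin n ⊕ Fin n) (Fin n ⊕ Fin n) F)) *ᵥ v) := by
    rw [← mulVec_mulVec, ← mulVec_mulVec, dotProduct_mulVec u, vecMul_transpose]
  unfold sform
  rw [act_apply, act_apply, h1, spact_transpose_mul]

end Cfsg.Agent.Lib.Helper18.WR
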