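import Mathlib

/-! Project QB (helper48, S2359): piece QB-CF2 (`cf_norm`), by helper82. -/

set_option autoImplicit false

namespace Cfsg.Agent.Lib.Helper48.QB

theorem cf_norm {C : Type*} [Group C] [Finite C] (V : Sylow 2 C) (hV4 : Nat.card V = 4)
    (hE : ∀ x ∈ V, x * x = 1)
    (hcent : ∀ v ∈ V, v ≠ 1 →
      Subgroup.centralizer {v} = Subgroup.centralizer ((V : Subgroup C) : Set C))
    (h3 : ∀ u : C, orderOf u ≠ 3) :
    Subgroup.normalizer ((V : Subgroup C) : Set C) ≤
      Subgroup.centralizer ((V : Subgroup C) : Set C) := by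
  classical
  intro x hx
  have hxV : ∀ n, n ∈ (V : Subgroup C) ↔ x * n * x⁻¹ ∈ (V : Subgroup C) :=
    fun n => Subgroup.mem_normalizer_iff.mp hx n
  have hV4' : Nat.card (V : Subgroup C) = 4 := hV4
  have hE' : ∀ u ∈ (V : Subgroup C), u * u = 1 := fun u hu => hE u hu
  have hcent' : ∀ v ∈ (V : Subgroup C), v ≠ 1 →
      Subgroup.centralizer {v} = Subgroup.centralizer ((V : Subgroup C) : Set C) :=
    fun v hv => hcent v hv
  by_cases hfix : ∃ v ∈ (V : Subgroup C), v ≠ 1 ∧ x * v * x⁻¹ = v
  · obtain ⟨v, hv, hv1, hxv⟩ := hfix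
    rw [← hcent' v hv hv1]
    rw [Subgroup.mem_centralizer_iff]
    intro g hg
    rw [Set.mem_singleton_iff] at hg
    subst hg
    calc g * x = x * g * x⁻¹ * x := by rw [hxv]
      _ = x * g := by group
  · exfalso
    push Not at hfix
    obtain ⟨a, ha, ha1⟩ : ∃ a ∈ (V : Subgroup C), a ≠ 1 := by
      by_contra hcon
      push Not at hcon
      have hbot : (V : Subgroup C) = ⊥ := (Subgroup.eq_bot_iff_forall _).mpr hcon
      have h1 : Nat.card (V : Subgroup C) = 1 := by rw [hbot]; exact Subgroup.card_bot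
      omega
    have hconj1 : ∀ u : C, x * u * x⁻¹ = 1 → u = 1 := by
      intro u hu
      have h : u = x⁻¹ * (x * u * x⁻¹) * x := by group
      rw [h, hu]; group
    obtain ⟨b, hb⟩ : ∃ b, b = x * a * x⁻¹ := ⟨_, rfl⟩
    have hbV : b ∈ (V : Subgroup C) := hb ▸ (hxV a).mp ha
    have hb1 : b ≠ 1 := fun h => ha1 (hconj1 a (hb ▸ h))
    have hba : b ≠ a := hb ▸ hfix a ha ha1
    have hinv : ∀ u ∈ (V : Subgroup C), u⁻¹ = u := fun u hu =>
      inv_eq_of_mul_eq_one_left (hE' u hu)
    have hcomm : ∀ u ∈ (V : Subgroup C), ∀ w ∈ (V : Subgroup C), u * w = w * u := by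
      intro u hu w hw
      calc u * w = (u * w)⁻¹ := (hinv (u * w) (mul_mem hu hw)).symm
        _ = w⁻¹ * u⁻¹ := mul_inv_rev u w
        _ = w * u := by rw [hinv u hu, hinv w hw]
    obtain ⟨c, hc⟩ : ∃ c, c = a * b := ⟨_, rfl⟩
    have hcV : c ∈ (V : Subgroup C) := hc ▸ mul_mem ha hbV
    have hc1 : c ≠ 1 := by
      intro h
      apply hba
      have h2 : a * b = a * a := by rw [← hc, h, hE' a ha]
      exact mul_left_cancel h2
    have hca : c ≠ a := by
      intro h
      apply hb1
      have h2 : a * b = a * 1 := by rw [mul_one, ← hc]; exact h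
      exact mul_left_cancel h2
    have hcb : c ≠ b := by
      intro h
      apply ha1
      have h2 : a * b = 1 * b := by rw [one_mul, ← hc]; exact h
      exact mul_right_cancel h2
    have henum : ∀ v ∈ (V : Subgroup C), v = 1 ∨ v = a ∨ v = b ∨ v = c := by
      haveI : Fintype (V : Subgroup C) := Fintype.ofFinite _
      have hcard : Fintype.card (V : Subgroup C) = 4 := by
        rw [← Nat.card_eq_fintype_card]; exact hV4'
      let s : Finset (V : Subgroup C) := {1, ⟨a, ha⟩, ⟨b, hbV⟩, ⟨c, hcV⟩}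
      have hs : s.card = 4 := by
        have e1 : (⟨b, hbV⟩ : (V : Subgroup C)) ∉ ({⟨c, hcV⟩} : Finset (V : Subgroup C)) := by
          rw [Finset.mem_singleton, Subtype.mk.injEq]; exact hcb.symm
        have e2 : (⟨a, ha⟩ : (V : Subgroup C)) ∉
            (insert ⟨b, hbV⟩ {⟨c, hcV⟩} : Finset (V : Subgroup C)) := by
          rw [Finset.mem_insert, Finset.mem_singleton, Subtype.mk.injEq, Subtype.mk.injEq]
          rintro (h | h)
          · exact hba h.symm
          · exact hca h.symm
        have e3 : (1 : (V : Subgroup C)) ∉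
            (insert ⟨a, ha⟩ (insert ⟨b, hbV⟩ {⟨c, hcV⟩}) : Finset (V : Subgroup C)) := by
          rw [Finset.mem_insert, Finset.mem_insert, Finset.mem_singleton, Subtype.ext_iff,
            Subtype.ext_iff, Subtype.ext_iff]
          rintro (h | h | h)
          · exact ha1 h.symm
          · exact hb1 h.symm
          · exact hc1 h.symm
        show (insert 1 (insert ⟨a, ha⟩ (insert ⟨b, hbV⟩ {⟨c, hcV⟩})) :
          Finset (V : Subgroup C)).card = 4
        rw [Finset.card_insert_of_notMem e3, Finset.card_insert_of_notMem e2,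
          Finset.card_insert_of_notMem e1, Finset.card_singleton]
      have hsu : s = Finset.univ := Finset.eq_univ_of_card s (hs.trans hcard.symm)
      intro v hv
      have hmem : (⟨v, hv⟩ : (V : Subgroup C)) ∈ s := by rw [hsu]; exact Finset.mem_univ _
      have hmem' : (⟨v, hv⟩ : (V : Subgroup C)) ∈
          (insert 1 (insert ⟨a, ha⟩ (insert ⟨b, hbV⟩ {⟨c, hcV⟩})) :
            Finset (V : Subgroup C)) := hmem
      rw [Finset.mem_insert, Finset.mem_insert, Finset.mem_insert, Finset.mem_singleton,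
        Subtype.ext_iff, Subtype.mk.injEq, Subtype.mk.injEq, Subtype.mk.injEq] at hmem'
      exact hmem'
    obtain ⟨d, hd⟩ : ∃ d, d = x * b * x⁻¹ := ⟨_, rfl⟩
    have hdV : d ∈ (V : Subgroup C) := hd ▸ (hxV b).mp hbV
    have hd1 : d ≠ 1 := fun h => hb1 (hconj1 b (hd ▸ h))
    have hdb : d ≠ b := hd ▸ hfix b hbV hb1
    have hxc0 : x * c * x⁻¹ = b * d := by
      calc x * c * x⁻¹ = (x * a * x⁻¹) * (x * b * x⁻¹) := by rw [hc]; group
        _ = b * d := by rw [← hb, ← hd]
    have hda : d ≠ a := by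
      intro h
      apply hfix c hcV hc1
      rw [hxc0, h, hc]
      exact hcomm b hbV a ha
    have hdc : d = c := by
      rcases henum d hdV with h | h | h | h
      · exact absurd h hd1
      · exact absurd h hda
      · exact absurd h hdb
      · exact h
    have hxc : x * c * x⁻¹ = a := by
      rw [hxc0, hdc, hc, hcomm a ha b hbV, ← mul_assoc, hE' b hbV, one_mul]
    have hx3 : x ^ 3 * a * (x ^ 3)⁻¹ = a := by
      calc x ^ 3 * a * (x ^ 3)⁻¹ = x * (x * (x * a * x⁻¹) * x⁻¹) * x⁻¹ := by
            rw [pow_succ, pow_two, mul_inv_rev, mul_inv_rev]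
            simp only [mul_assoc]
        _ = x * c * x⁻¹ := by rw [← hb, ← hd, hdc]
        _ = a := hxc
    have hx3c : x ^ 3 ∈ Subgroup.centralizer ({a} : Set C) := by
      rw [Subgroup.mem_centralizer_iff]
      intro g hg
      rw [Set.mem_singleton_iff] at hg
      subst hg
      calc g * x ^ 3 = (x ^ 3 * g * (x ^ 3)⁻¹) * x ^ 3 := by rw [hx3]
        _ = x ^ 3 * g := by rw [inv_mul_cancel_right]
    by_cases h3d : 3 ∣ orderOf x
    · exact h3 (x ^ (orderOf x / 3)) (orderOf_pow_orderOf_div (orderOf_pos x).ne' h3d)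
    · have hcop : Nat.Coprime 3 (orderOf x) :=
        (Nat.Prime.coprime_iff_not_dvd Nat.prime_three).mpr h3d
      obtain ⟨m, hm⟩ := exists_pow_eq_self_of_coprime hcop
      have hxc' : x ∈ Subgroup.centralizer ({a} : Set C) := by
        rw [← hm]; exact pow_mem hx3c m
      rw [Subgroup.mem_centralizer_iff] at hxc'
      have hax := hxc' a (Set.mem_singleton a)
      apply hfix a ha ha1
      rw [← hax]; group

end Cfsg.Agent.Lib.Helper48.QB
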