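import Mathlib

set_option autoImplicit false

/-!
# Automorphism orbits: general lemmas (helper82)

Weighted orbit counting, subgroups of prime index, and the construction of an automorphism
fixing a normal subgroup `H` of prime index pointwise and multiplying an element outside `H`
by an element of `H` centralizing `H`.
-/

namespace Cfsg.Agent.Lib.Helper82

open scoped BigOperators

/-- Weighted orbit count: if `M ≤ c x * |orbit x|` for every `x`, then `M * #orbits ≤ ∑ c x`. -/
theorem autorb_orbit_count_bound {A X : Type*} [Group A] [MulAction A X] [Fintype X]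
    (M : ℕ) (c : X → ℕ)
    (h : ∀ x, M ≤ c x * Nat.card (MulAction.orbit A x)) :
    M * Nat.card (MulAction.orbitRel.Quotient A X) ≤ ∑ x, c x := by
  classical
  haveI : Fintype (MulAction.orbitRel.Quotient A X) := Fintype.ofFinite _
  rw [Nat.card_eq_fintype_card, ← Finset.sum_fiberwise (s := Finset.univ)
    (g := fun x : X => (Quotient.mk'' x : MulAction.orbitRel.Quotient A X)) (f := c)]
  rw [mul_comm, ← smul_eq_mul, ← Finset.card_univ, ← Finset.sum_const]
  apply Finset.sum_le_sum
  intro ω _
  induction ω using Quotient.inductionOn' with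
  | h x₀ =>
  have hfib : ∀ x, (Quotient.mk'' x : MulAction.orbitRel.Quotient A X) = Quotient.mk'' x₀ ↔
      x ∈ MulAction.orbit A x₀ := by
    intro x
    rw [Quotient.eq'']
    rfl
  set F : Finset X := Finset.univ.filter
    (fun x => (Quotient.mk'' x : MulAction.orbitRel.Quotient A X) = Quotient.mk'' x₀) with hF
  have hn : F.card = Nat.card (MulAction.orbit A x₀) := by
    rw [← Set.ncard_coe_finset F, ← Nat.card_coe_set_eq]
    congr 2
    ext x
    simp [hF, hfib]
  have hpos : 0 < F.card := Finset.card_pos.mpr ⟨x₀, by simp [hF]⟩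
  have h1 : F.card * M ≤ F.card * (∑ x ∈ F, c x) := by
    rw [Finset.mul_sum, ← smul_eq_mul, ← Finset.sum_const]
    apply Finset.sum_le_sum
    intro x hx
    have hx' : x ∈ MulAction.orbit A x₀ := (hfib x).mp (Finset.mem_filter.mp hx).2
    have h2 := h x
    rw [MulAction.orbit_eq_iff.mpr hx', ← hn] at h2
    rw [mul_comm]
    exact h2
  exact Nat.le_of_mul_le_mul_left h1 hpos

/-- A proper inclusion of subgroups has index at least the least prime factor of `|G|`. -/
theorem autorb_card_mul_minFac_le {G : Type*} [Group G] [Finite G] {A B : Subgroup G}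
    (hle : A ≤ B) (hne : A ≠ B) :
    Nat.card A * (Nat.card G).minFac ≤ Nat.card B := by
  obtain ⟨m, hm⟩ := Subgroup.card_dvd_of_le hle
  have hB : 0 < Nat.card B := Nat.card_pos
  have hm1 : m ≠ 1 := by
    rintro rfl
    apply hne
    exact Subgroup.eq_of_le_of_card_ge hle (by rw [hm]; simp)
  have hm0 : m ≠ 0 := by
    rintro rfl
    simp at hm
    omega
  have hdvd : m ∣ Nat.card G :=
    (Dvd.intro_left _ hm.symm).trans (Subgroup.card_subgroup_dvd_card B)
  have h2 := Nat.minFac_le_of_dvd (by omega) hdvd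
  rw [hm]
  exact Nat.mul_le_mul_left _ h2

/-- A subgroup of prime index is maximal. -/
theorem autorb_eq_top_of_prime_index {G : Type*} [Group G] {H K : Subgroup G}
    (hp : H.index.Prime) (hle : H ≤ K) {g : G} (hg : g ∈ K) (hgH : g ∉ H) : K = ⊤ := by
  have hdvd : K.index ∣ H.index := Subgroup.index_dvd_of_le hle
  rcases (Nat.dvd_prime hp).mp hdvd with h1 | h1
  · exact Subgroup.index_eq_one.mp h1
  · exfalso
    have h2 := Subgroup.relIndex_mul_index hle
    rw [h1] at h2
    have h3 : H.relIndex K = 1 := by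
      have h4 := hp.pos
      exact Nat.eq_of_mul_eq_mul_right h4 (by rw [h2, one_mul])
    exact hgH (Subgroup.relIndex_eq_one.mp h3 hg)

/-- If `b ∉ H` with `H` normal of prime index `p` and `b ^ n ∈ H` then `p ∣ n`. -/
theorem autorb_dvd_of_zpow_mem {G : Type*} [Group G] (H : Subgroup G) [H.Normal]
    (hp : H.index.Prime) {b : G} (hb : b ∉ H) {n : ℤ} (hn : b ^ n ∈ H) :
    (H.index : ℤ) ∣ n := by
  have h1 : orderOf (QuotientGroup.mk' H b) = H.index := by
    have h2 : orderOf (QuotientGroup.mk' H b) ∣ H.index := by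
      rw [Subgroup.index_eq_card]
      exact orderOf_dvd_natCard _
    rcases (Nat.dvd_prime hp).mp h2 with h3 | h3
    · exfalso
      rw [orderOf_eq_one_iff] at h3
      exact hb ((QuotientGroup.eq_one_iff b).mp h3)
    · exact h3
  rw [← h1, orderOf_dvd_iff_zpow_eq_one, ← map_zpow]
  exact (QuotientGroup.eq_one_iff _).mpr hn

/-- The automorphism fixing `H` pointwise and sending `b` to `b * a`. -/
theorem autorb_exists_aut {G : Type*} [Group G] [Finite G] (H : Subgroup G) [hN : H.Normal]
    (hp : H.index.Prime) (a b : G) (ha : a ∈ H) (hcent : ∀ h ∈ H, h * a = a * h) (hb : b ∉ H)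
    (hpow : (b * a) ^ H.index = b ^ H.index) :
    ∃ α : MulAut G, (∀ h ∈ H, α h = h) ∧ α b = b * a := by
  classical
  have key : (MulAut.conjNormal (b * a) : MulAut H) = MulAut.conjNormal b := by
    have h1 : (MulAut.conjNormal a : MulAut H) = 1 := by
      ext h
      rw [MulAut.conjNormal_apply, MulAut.one_apply, ← hcent h h.2]
      group
    rw [map_mul, h1, mul_one]
  let φ : Multiplicative ℤ →* MulAut H := (MulAut.conjNormal).comp (zpowersHom G b)
  have hφ : (MulAut.conjNormal).comp (zpowersHom G (b * a)) = φ := by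
    ext n : 1
    simp only [φ, MonoidHom.comp_apply, zpowersHom_apply, map_zpow, key]
  have hc1 : ∀ n : Multiplicative ℤ, H.subtype.comp (φ n).toMonoidHom =
      (MulAut.conj ((zpowersHom G b) n)).toMonoidHom.comp H.subtype := by
    intro n
    ext h
    show ((MulAut.conjNormal ((zpowersHom G b) n) : MulAut H) h : G) =
      MulAut.conj ((zpowersHom G b) n) (h : G)
    rw [MulAut.conjNormal_apply, MulAut.conj_apply]
  have hc2 : ∀ n : Multiplicative ℤ, H.subtype.comp (φ n).toMonoidHom =
      (MulAut.conj ((zpowersHom G (b * a)) n)).toMonoidHom.comp H.subtype := by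
    intro n
    rw [← hφ]
    ext h
    show ((MulAut.conjNormal ((zpowersHom G (b * a)) n) : MulAut H) h : G) =
      MulAut.conj ((zpowersHom G (b * a)) n) (h : G)
    rw [MulAut.conjNormal_apply, MulAut.conj_apply]
  let π₁ : H ⋊[φ] Multiplicative ℤ →* G := SemidirectProduct.lift H.subtype (zpowersHom G b) hc1
  let π₂ : H ⋊[φ] Multiplicative ℤ →* G :=
    SemidirectProduct.lift H.subtype (zpowersHom G (b * a)) hc2
  have hπ₁ : ∀ x : H ⋊[φ] Multiplicative ℤ,
      π₁ x = (x.left : G) * b ^ (Multiplicative.toAdd x.right) := by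
    intro x
    conv_lhs => rw [← SemidirectProduct.inl_left_mul_inr_right x]
    rw [map_mul]
    simp only [π₁, SemidirectProduct.lift_inl, SemidirectProduct.lift_inr]
    simp
  have hπ₂ : ∀ x : H ⋊[φ] Multiplicative ℤ,
      π₂ x = (x.left : G) * (b * a) ^ (Multiplicative.toAdd x.right) := by
    intro x
    conv_lhs => rw [← SemidirectProduct.inl_left_mul_inr_right x]
    rw [map_mul]
    simp only [π₂, SemidirectProduct.lift_inl, SemidirectProduct.lift_inr]
    simp
  have hπ₁l : ∀ h : H, π₁ (SemidirectProduct.inl h) = h := by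
    intro h; simp [π₁]
  have hπ₂l : ∀ h : H, π₂ (SemidirectProduct.inl h) = h := by
    intro h; simp [π₂]
  have hπ₁r : π₁ (SemidirectProduct.inr (Multiplicative.ofAdd 1)) = b := by
    simp [π₁]
  have hπ₂r : π₂ (SemidirectProduct.inr (Multiplicative.ofAdd 1)) = b * a := by
    simp [π₂]
  have hsurj : Function.Surjective π₁ := by
    rw [← MonoidHom.range_eq_top]
    apply autorb_eq_top_of_prime_index hp (g := b) _ (MonoidHom.mem_range.mpr ⟨_, hπ₁r⟩) hb
    intro h hh
    exact ⟨_, hπ₁l ⟨h, hh⟩⟩
  have hker : π₁.ker ≤ π₂.ker := by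
    intro x hx
    rw [MonoidHom.mem_ker] at hx ⊢
    rw [hπ₁] at hx
    rw [hπ₂]
    have h1 : b ^ (Multiplicative.toAdd x.right) ∈ H := by
      have h2 : b ^ (Multiplicative.toAdd x.right) = ((x.left)⁻¹ : H) := by
        rw [Subgroup.coe_inv]
        exact eq_inv_of_mul_eq_one_right hx
      rw [h2]
      exact ((x.left)⁻¹ : H).2
    obtain ⟨k, hk⟩ := autorb_dvd_of_zpow_mem H hp hb h1
    rw [hk, zpow_mul, zpow_natCast, hpow, ← zpow_natCast, ← zpow_mul, ← hk]
    exact hx
  let α₀ : G →* G := (MonoidHom.liftOfSurjective π₁ hsurj) ⟨π₂, hker⟩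
  have hα₀ : ∀ x, α₀ (π₁ x) = π₂ x := by
    intro x
    exact MonoidHom.liftOfRightInverse_comp_apply _ _ _ _ x
  have hαH : ∀ h ∈ H, α₀ h = h := by
    intro h hh
    have h1 := hα₀ (SemidirectProduct.inl ⟨h, hh⟩)
    rw [hπ₁l, hπ₂l] at h1
    exact h1
  have hαb : α₀ b = b * a := by
    have h1 := hα₀ (SemidirectProduct.inr (Multiplicative.ofAdd 1))
    rw [hπ₁r, hπ₂r] at h1
    exact h1
  have hE : MonoidHom.eqLocus ((QuotientGroup.mk' H).comp α₀) (QuotientGroup.mk' H) = ⊤ := by
    apply autorb_eq_top_of_prime_index hp (g := b) _ _ hb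
    · intro h hh
      show (QuotientGroup.mk' H) (α₀ h) = (QuotientGroup.mk' H) h
      rw [hαH h hh]
    · show (QuotientGroup.mk' H) (α₀ b) = (QuotientGroup.mk' H) b
      have ha1 : (QuotientGroup.mk' H) a = 1 := (QuotientGroup.eq_one_iff a).mpr ha
      rw [hαb, map_mul, ha1, mul_one]
  have hinj : Function.Injective α₀ := by
    rw [injective_iff_map_eq_one]
    intro g hg
    have h1 : g ∈ MonoidHom.eqLocus ((QuotientGroup.mk' H).comp α₀) (QuotientGroup.mk' H) := by
      rw [hE]; trivial
    have h2 : (QuotientGroup.mk' H) (α₀ g) = (QuotientGroup.mk' H) g := h1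
    rw [hg, map_one] at h2
    have h3 : g ∈ H := (QuotientGroup.eq_one_iff g).mp h2.symm
    rw [← hαH g h3]
    exact hg
  have hbij : Function.Bijective α₀ := hinj.bijective_of_finite
  exact ⟨MulEquiv.ofBijective α₀ hbij, hαH, hαb⟩

/-- For `g ∉ H`, the shift `g⁻¹ * α g` lies in `H` but not in the commutator subgroup. -/
theorem autorb_shift {G : Type*} [Group G] (H : Subgroup G) [H.Normal]
    (hp : H.index.Prime) (a b : G) (ha : a ∈ H) (hb : b ∉ H) (ha' : a ∉ commutator G)
    (α : MulAut G) (hα : ∀ h ∈ H, α h = h) (hαb : α b = b * a) (g : G) (hg : g ∉ H) :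
    g⁻¹ * α g ∈ H ∧ g⁻¹ * α g ∉ commutator G := by
  constructor
  · have hE : MonoidHom.eqLocus ((QuotientGroup.mk' H).comp α.toMonoidHom)
        (QuotientGroup.mk' H) = ⊤ := by
      apply autorb_eq_top_of_prime_index hp (g := b) _ _ hb
      · intro h hh
        show (QuotientGroup.mk' H) (α h) = (QuotientGroup.mk' H) h
        rw [hα h hh]
      · show (QuotientGroup.mk' H) (α b) = (QuotientGroup.mk' H) b
        have ha1 : (QuotientGroup.mk' H) a = 1 := (QuotientGroup.eq_one_iff a).mpr ha
        rw [hαb, map_mul, ha1, mul_one]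
    have h1 : g ∈ MonoidHom.eqLocus ((QuotientGroup.mk' H).comp α.toMonoidHom)
        (QuotientGroup.mk' H) := by
      rw [hE]; trivial
    have h2 : (QuotientGroup.mk' H) (α g) = (QuotientGroup.mk' H) g := h1
    exact QuotientGroup.eq.mp h2.symm
  · intro hmem
    have hK : MonoidHom.eqLocus ((QuotientGroup.mk' (commutator G)).comp α.toMonoidHom)
        (QuotientGroup.mk' (commutator G)) = ⊤ := by
      apply autorb_eq_top_of_prime_index hp (g := g) _ _ hg
      · intro h hh
        show (QuotientGroup.mk' (commutator G)) (α h) = (QuotientGroup.mk' (commutator G)) h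
        rw [hα h hh]
      · show (QuotientGroup.mk' (commutator G)) (α g) = (QuotientGroup.mk' (commutator G)) g
        exact (QuotientGroup.eq.mpr hmem).symm
    have h1 : b ∈ MonoidHom.eqLocus ((QuotientGroup.mk' (commutator G)).comp α.toMonoidHom)
        (QuotientGroup.mk' (commutator G)) := by
      rw [hK]; trivial
    have h2 : (QuotientGroup.mk' (commutator G)) (α b) = (QuotientGroup.mk' (commutator G)) b :=
      h1
    rw [hαb] at h2
    have h3 := QuotientGroup.eq.mp h2.symm
    rw [inv_mul_cancel_left] at h3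
    exact ha' h3

end Cfsg.Agent.Lib.Helper82
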