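import Mathlib
import Cfsg.Agent.Lib.Helper82.AutOrbA

set_option autoImplicit false

/-!
# Automorphism orbits: groups with central commutator subgroup of prime order (helper82)
-/

namespace Cfsg.Agent.Lib.Helper82

open scoped BigOperators commutatorElement

section
variable {G : Type*} [Group G]

/-- If `|G'|` is at most the least prime factor of `|G|` then `G'` is central. -/
theorem autorb_comm_le_center [Finite G]
    (hcard : Nat.card (commutator G) ≤ (Nat.card G).minFac) :
    commutator G ≤ Subgroup.center G := by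
  classical
  intro c hc
  rw [Subgroup.mem_center_iff]
  intro g
  by_cases hc1 : c = 1
  · subst hc1; simp
  have horb : MulAction.orbit (ConjAct G) c ⊆ (commutator G : Set G) \ {1} := by
    rintro _ ⟨k, rfl⟩
    refine ⟨?_, ?_⟩
    · show k • c ∈ commutator G
      rw [ConjAct.smul_def]
      exact (inferInstance : (commutator G).Normal).conj_mem c hc _
    · simp only [Set.mem_singleton_iff]
      rw [ConjAct.smul_def]
      intro h
      apply hc1
      have h2 : c = (ConjAct.ofConjAct k)⁻¹ * 1 * (ConjAct.ofConjAct k) := by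
        rw [← h]; group
      rw [h2]; group
  have h1 : (MulAction.orbit (ConjAct G) c).ncard < (Nat.card G).minFac := by
    have h2 : (MulAction.orbit (ConjAct G) c).ncard ≤ ((commutator G : Set G) \ {1}).ncard :=
      Set.ncard_le_ncard horb (Set.toFinite _)
    rw [Set.ncard_diff_singleton_of_mem (one_mem (commutator G))] at h2
    have h3 : (commutator G : Set G).ncard = Nat.card (commutator G) := by
      rw [← Nat.card_coe_set_eq]; rfl
    have h4 : 0 < Nat.card (commutator G) := Nat.card_pos
    omega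
  have h2 : (MulAction.orbit (ConjAct G) c).ncard ∣ Nat.card G := by
    rw [← MulAction.index_stabilizer (ConjAct G) c]
    have h3 : Nat.card G = Nat.card (ConjAct G) := Nat.card_congr ConjAct.toConjAct.toEquiv
    rw [h3]
    exact Subgroup.index_dvd_card _
  have h3 : (MulAction.orbit (ConjAct G) c).ncard = 1 := by
    by_contra hne
    have hpos : 0 < (MulAction.orbit (ConjAct G) c).ncard :=
      (Set.ncard_pos (Set.toFinite _)).mpr ⟨c, MulAction.mem_orbit_self _⟩
    have h4 := Nat.minFac_le_of_dvd (by omega) h2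
    omega
  have h4 : (ConjAct.toConjAct g) • c ∈ MulAction.orbit (ConjAct G) c :=
    MulAction.mem_orbit _ _
  have h5 : c ∈ MulAction.orbit (ConjAct G) c := MulAction.mem_orbit_self _
  obtain ⟨d, hd⟩ := Set.ncard_eq_one.mp h3
  rw [hd, Set.mem_singleton_iff] at h4 h5
  have h7 : g * c * g⁻¹ = c := by
    have h8 : ConjAct.toConjAct g • c = c := by rw [h4, ← h5]
    rw [ConjAct.smul_def] at h8
    simpa using h8
  calc g * c = g * c * g⁻¹ * g := by group
    _ = c * g := by rw [h7]

/-- In a group with central commutator subgroup, `y ↦ ⁅y, x⁆` is a homomorphism. -/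
noncomputable def autorbComm (hc : commutator G ≤ Subgroup.center G) (x : G) : G →* G :=
  MonoidHom.mk' (fun y => ⁅y, x⁆) (by
    intro y₁ y₂
    have h2 : ⁅y₂, x⁆ ∈ Subgroup.center G :=
      hc (Subgroup.commutator_mem_commutator (Subgroup.mem_top _) (Subgroup.mem_top _))
    rw [Subgroup.mem_center_iff] at h2
    have h3 := h2 (x * y₁⁻¹ * x⁻¹)
    simp only [commutatorElement_def] at h3 ⊢
    calc y₁ * y₂ * x * (y₁ * y₂)⁻¹ * x⁻¹
        = y₁ * ((y₂ * x * y₂⁻¹ * x⁻¹) * (x * y₁⁻¹ * x⁻¹)) := by group
      _ = y₁ * ((x * y₁⁻¹ * x⁻¹) * (y₂ * x * y₂⁻¹ * x⁻¹)) := by rw [h3]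
      _ = y₁ * x * y₁⁻¹ * x⁻¹ * (y₂ * x * y₂⁻¹ * x⁻¹) := by group)

theorem autorbComm_apply (hc : commutator G ≤ Subgroup.center G) (x y : G) :
    autorbComm hc x y = ⁅y, x⁆ := rfl

theorem autorbComm_range_le (hc : commutator G ≤ Subgroup.center G) (x : G) :
    (autorbComm hc x).range ≤ commutator G := by
  rintro _ ⟨y, rfl⟩
  rw [autorbComm_apply]
  exact Subgroup.commutator_mem_commutator (Subgroup.mem_top _) (Subgroup.mem_top _)

theorem autorbComm_ker (hc : commutator G ≤ Subgroup.center G) (x : G) :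
    (autorbComm hc x).ker = Subgroup.centralizer {x} := by
  ext y
  rw [MonoidHom.mem_ker, autorbComm_apply, commutatorElement_eq_one_iff_mul_comm,
    Subgroup.mem_centralizer_iff]
  simp only [Set.mem_singleton_iff, forall_eq]
  exact eq_comm

theorem autorbComm_range_eq [Finite G] (hc : commutator G ≤ Subgroup.center G)
    (hp : (Nat.card (commutator G)).Prime) (x : G) (hx : x ∉ Subgroup.center G) :
    (autorbComm hc x).range = commutator G := by
  have hle := autorbComm_range_le hc x
  have hdvd := Subgroup.card_dvd_of_le hle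
  rcases (Nat.dvd_prime hp).mp hdvd with h1 | h1
  · exfalso
    apply hx
    rw [Subgroup.mem_center_iff]
    intro g
    have h2 : (autorbComm hc x).range = ⊥ := Subgroup.card_eq_one.mp h1
    have h3 : autorbComm hc x g ∈ (autorbComm hc x).range := ⟨g, rfl⟩
    rw [h2, Subgroup.mem_bot, autorbComm_apply, commutatorElement_eq_one_iff_mul_comm] at h3
    exact h3
  · exact Subgroup.eq_of_le_of_card_ge hle (le_of_eq h1.symm)

theorem autorb_centralizer_index [Finite G] (hc : commutator G ≤ Subgroup.center G)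
    (hp : (Nat.card (commutator G)).Prime) (x : G) (hx : x ∉ Subgroup.center G) :
    (Subgroup.centralizer {x}).index = Nat.card (commutator G) := by
  rw [← autorbComm_ker hc x, Subgroup.index_ker, autorbComm_range_eq hc hp x hx]

/-- A noncentral element is conjugate to all its translates by commutators. -/
theorem autorb_conj_mul [Finite G] (hc : commutator G ≤ Subgroup.center G)
    (hp : (Nat.card (commutator G)).Prime) (x : G) (hx : x ∉ Subgroup.center G)
    (c : G) (hcc : c ∈ commutator G) : ∃ y : G, y * x * y⁻¹ = x * c := by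
  rw [← autorbComm_range_eq hc hp x hx] at hcc
  obtain ⟨y, hy⟩ := hcc
  rw [autorbComm_apply, commutatorElement_def] at hy
  refine ⟨y, ?_⟩
  have h1 := hc (by rw [← autorbComm_range_eq hc hp x hx]; exact ⟨y, by
    rw [autorbComm_apply, commutatorElement_def]; exact hy⟩ : c ∈ commutator G)
  rw [Subgroup.mem_center_iff] at h1
  rw [h1 x, ← hy]
  group

/-- `⁅x ^ n, g⁆ = ⁅x, g⁆ ^ n`. -/
theorem autorb_comm_pow (hc : commutator G ≤ Subgroup.center G) (x g : G) (n : ℕ) :
    ⁅x ^ n, g⁆ = ⁅x, g⁆ ^ n := by
  rw [← autorbComm_apply hc, ← autorbComm_apply hc, map_pow]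

/-- The power formula in class two. -/
theorem autorb_mul_pow (hc : commutator G ≤ Subgroup.center G) (x y : G) (n : ℕ) :
    (x * y) ^ n = x ^ n * y ^ n * ⁅y, x⁆ ^ (∑ i ∈ Finset.range n, i) := by
  have hz : ∀ (k : ℕ) (w : G), ⁅y, x⁆ ^ k * w = w * ⁅y, x⁆ ^ k := by
    intro k w
    have h1 : ⁅y, x⁆ ^ k ∈ Subgroup.center G :=
      Subgroup.pow_mem _
        (hc (Subgroup.commutator_mem_commutator (Subgroup.mem_top _) (Subgroup.mem_top _))) k
    rw [Subgroup.mem_center_iff] at h1
    exact (h1 w).symm
  induction n with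
  | zero => simp
  | succ n ih =>
    have hA : y ^ n * x = ⁅y, x⁆ ^ n * x * y ^ n := by
      rw [← autorb_comm_pow hc, commutatorElement_def]
      group
    set z := ⁅y, x⁆ with hzdef
    set e := ∑ i ∈ Finset.range n, i with hedef
    rw [Finset.sum_range_succ, ← hedef]
    calc (x * y) ^ (n + 1) = (x * y) ^ n * (x * y) := pow_succ _ _
      _ = x ^ n * y ^ n * z ^ e * (x * y) := by rw [ih]
      _ = x ^ n * y ^ n * (z ^ e * (x * y)) := by group
      _ = x ^ n * y ^ n * ((x * y) * z ^ e) := by rw [hz e (x * y)]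
      _ = x ^ n * (y ^ n * x) * y * z ^ e := by group
      _ = x ^ n * (z ^ n * x * y ^ n) * y * z ^ e := by rw [hA]
      _ = x ^ n * (z ^ n * (x * y ^ n * y)) * z ^ e := by group
      _ = x ^ n * ((x * y ^ n * y) * z ^ n) * z ^ e := by rw [hz n (x * y ^ n * y)]
      _ = x ^ (n + 1) * y ^ (n + 1) * z ^ (e + n) := by
        rw [pow_succ, pow_succ, pow_add]; group

/-- Powers by the order of `G'` are central. -/
theorem autorb_pow_mem_center [Finite G] (hc : commutator G ≤ Subgroup.center G) (x : G) :
    x ^ Nat.card (commutator G) ∈ Subgroup.center G := by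
  rw [Subgroup.mem_center_iff]
  intro g
  have h1 : ⁅x ^ Nat.card (commutator G), g⁆ = 1 := by
    rw [autorb_comm_pow hc]
    have h2 : ⁅x, g⁆ ∈ commutator G :=
      Subgroup.commutator_mem_commutator (Subgroup.mem_top _) (Subgroup.mem_top _)
    have h3 := pow_card_eq_one' (G := commutator G) (x := ⟨⁅x, g⁆, h2⟩)
    have h4 := congrArg Subtype.val h3
    rw [Subgroup.coe_pow, Subgroup.coe_one] at h4
    exact h4
  rw [commutatorElement_eq_one_iff_mul_comm] at h1
  exact h1.symm

/-- For odd `p = |G'|` the `p`-th power map is multiplicative. -/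
theorem autorb_mul_pow_odd [Finite G] (hc : commutator G ≤ Subgroup.center G)
    (hodd : ¬ 2 ∣ Nat.card (commutator G)) (x y : G) :
    (x * y) ^ Nat.card (commutator G) =
      x ^ Nat.card (commutator G) * y ^ Nat.card (commutator G) := by
  rw [autorb_mul_pow hc]
  set p := Nat.card (commutator G) with hpdef
  have h1 : p ∣ ∑ i ∈ Finset.range p, i := by
    have h2 := Finset.sum_range_id_mul_two p
    have h3 : p ∣ (∑ i ∈ Finset.range p, i) * 2 := by rw [h2]; exact dvd_mul_right _ _
    have h4 : Nat.Coprime p 2 := by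
      rw [Nat.coprime_comm, Nat.Prime.coprime_iff_not_dvd Nat.prime_two]
      exact hodd
    exact h4.dvd_of_dvd_mul_right h3
  obtain ⟨k, hk⟩ := h1
  have h2 : ⁅y, x⁆ ∈ commutator G :=
    Subgroup.commutator_mem_commutator (Subgroup.mem_top _) (Subgroup.mem_top _)
  have h3 := pow_card_eq_one' (G := commutator G) (x := ⟨⁅y, x⁆, h2⟩)
  have h4 : ⁅y, x⁆ ^ p = 1 := by
    have h5 := congrArg Subtype.val h3
    rw [Subgroup.coe_pow, Subgroup.coe_one] at h5
    exact h5
  rw [hk, pow_mul, h4, one_pow, mul_one]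

end

end Cfsg.Agent.Lib.Helper82
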