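import Mathlib
import Cfsg.Agent.Lib.Helper82.AutOrbB

set_option autoImplicit false

/-!
# Automorphism orbits: the data for the extra automorphism (helper82)

For `G` of class two with `|G'| = p` the least prime divisor of `|G|`, we find a noncentral `y`
and `a ∈ Z(C_G(y)) \ G'` with `(b * a) ^ p = b ^ p` for all `b ∉ C_G(y)`.
-/

namespace Cfsg.Agent.Lib.Helper82

open scoped BigOperators commutatorElement

section
variable {G : Type*} [Group G] [Finite G]

theorem autorb_center_bound (hc : commutator G ≤ Subgroup.center G)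
    (hcard : Nat.card (commutator G) = (Nat.card G).minFac)
    (hp : (Nat.card G).minFac.Prime) (x : G) (hx : x ∉ Subgroup.center G) :
    Nat.card (Subgroup.centralizer {x}) * (Nat.card G).minFac = Nat.card G ∧
      Nat.card (Subgroup.center G) * (Nat.card G).minFac ≤
        Nat.card (Subgroup.centralizer {x}) := by
  constructor
  · rw [← hcard, ← autorb_centralizer_index hc (hcard ▸ hp) x hx]
    exact Subgroup.card_mul_index _
  · apply autorb_card_mul_minFac_le (Subgroup.center_le_centralizer _)
    intro heq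
    apply hx
    rw [heq, Subgroup.mem_centralizer_iff]
    simp

theorem autorb_exists_data_odd (hc : commutator G ≤ Subgroup.center G)
    (hcard : Nat.card (commutator G) = (Nat.card G).minFac)
    (hp : (Nat.card G).minFac.Prime) (hodd : ¬ 2 ∣ (Nat.card G).minFac)
    (x₀ : G) (hx₀ : x₀ ∉ Subgroup.center G) :
    ∃ y a : G, y ∉ Subgroup.center G ∧ a ∉ commutator G ∧ a * y = y * a ∧
      (∀ h, h * y = y * h → h * a = a * h) ∧
      (∀ b, ¬ (b * y = y * b) → (b * a) ^ (Nat.card G).minFac = b ^ (Nat.card G).minFac) := by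
  classical
  set p := (Nat.card G).minFac with hpdef
  have hodd' : ¬ 2 ∣ Nat.card (commutator G) := by rw [hcard]; exact hodd
  let P : G →* G := MonoidHom.mk' (fun x => x ^ p) (by
    intro x y
    have h := autorb_mul_pow_odd hc hodd' x y
    rw [hcard] at h
    exact h)
  have hPapp : ∀ x, P x = x ^ p := fun _ => rfl
  have hPr : P.range ≤ Subgroup.center G := by
    rintro _ ⟨x, rfl⟩
    have h := autorb_pow_mem_center hc x
    rw [hcard] at h
    exact h
  obtain ⟨h1, h2⟩ := autorb_center_bound hc hcard hp x₀ hx₀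
  have h3 : Nat.card P.ker * Nat.card P.range = Nat.card G := by
    rw [← Subgroup.index_ker]; exact Subgroup.card_mul_index _
  have h4 : Nat.card P.range ≤ Nat.card (Subgroup.center G) := Subgroup.card_le_of_le hPr
  have h5 : p * p ≤ Nat.card P.ker := by
    have hpos : 0 < Nat.card P.range := Nat.card_pos
    by_contra hlt
    push_neg at hlt
    have e1 : Nat.card P.ker * Nat.card P.range < p * p * Nat.card P.range :=
      Nat.mul_lt_mul_of_pos_right hlt hpos
    have e2 : p * p * Nat.card P.range ≤ p * p * Nat.card (Subgroup.center G) :=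
      Nat.mul_le_mul_left _ h4
    have e3 : Nat.card (Subgroup.center G) * p * p ≤ Nat.card (Subgroup.centralizer {x₀}) * p :=
      Nat.mul_le_mul_right p h2
    nlinarith
  have h6 : ¬ (P.ker ≤ commutator G) := by
    intro hle
    have h7 := Subgroup.card_le_of_le hle
    rw [hcard] at h7
    have h8 := hp.one_lt
    nlinarith
  obtain ⟨a, haker, haG'⟩ := SetLike.not_le_iff_exists.mp h6
  have hPa : P a = 1 := haker
  have hpow : ∀ b, (b * a) ^ p = b ^ p := by
    intro b
    rw [← hPapp, ← hPapp, map_mul, hPa, mul_one]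
  by_cases haZ : a ∈ Subgroup.center G
  · rw [Subgroup.mem_center_iff] at haZ
    exact ⟨x₀, a, hx₀, haG', (haZ x₀).symm, fun h _ => haZ h, fun b _ => hpow b⟩
  · exact ⟨a, a, haZ, haG', rfl, fun h hh => hh, fun b _ => hpow b⟩

theorem autorb_exists_data_two (hc : commutator G ≤ Subgroup.center G)
    (hcard : Nat.card (commutator G) = 2) (x₀ : G) (hx₀ : x₀ ∉ Subgroup.center G) :
    ∃ y a : G, y ∉ Subgroup.center G ∧ a ∉ commutator G ∧ a * y = y * a ∧
      (∀ h, h * y = y * h → h * a = a * h) ∧
      (∀ b, ¬ (b * y = y * b) → (b * a) ^ 2 = b ^ 2) := by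
  classical
  obtain ⟨c', hc'ne, hc'u⟩ := (Nat.card_eq_two_iff' (1 : commutator G)).mp hcard
  set c : G := c'.1 with hcdef
  have hcG' : c ∈ commutator G := c'.2
  have hall : ∀ d ∈ commutator G, d ≠ 1 → d = c := by
    intro d hd hd1
    have h := hc'u ⟨d, hd⟩ (by intro h; exact hd1 (congrArg Subtype.val h))
    exact congrArg Subtype.val h
  have hcc : c ^ 2 = 1 := by
    have h3 := pow_card_eq_one' (G := commutator G) (x := c')
    rw [hcard] at h3
    have h4 := congrArg Subtype.val h3
    rw [Subgroup.coe_pow, Subgroup.coe_one] at h4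
    exact h4
  have hcZ : ∀ w : G, w * c = c * w := by
    have h := hc hcG'
    rw [Subgroup.mem_center_iff] at h
    exact h
  have hcomm : ∀ s t : G, ¬ (s * t = t * s) → ⁅s, t⁆ = c := by
    intro s t hst
    apply hall _ (Subgroup.commutator_mem_commutator (Subgroup.mem_top _) (Subgroup.mem_top _))
    rwa [Ne, commutatorElement_eq_one_iff_mul_comm]
  have hsq : ∀ g : G, g ^ 2 ∈ Subgroup.center G := by
    intro g
    have h := autorb_pow_mem_center hc g
    rwa [hcard] at h
  -- a noncentral element with square `c` works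
  have fin : ∀ a : G, a ∉ Subgroup.center G → a ^ 2 = c →
      ∃ y a : G, y ∉ Subgroup.center G ∧ a ∉ commutator G ∧ a * y = y * a ∧
      (∀ h, h * y = y * h → h * a = a * h) ∧
      (∀ b, ¬ (b * y = y * b) → (b * a) ^ 2 = b ^ 2) := by
    intro a haZ ha2
    refine ⟨a, a, haZ, fun h => haZ (hc h), rfl, fun h hh => hh, ?_⟩
    intro b hb
    have h1 := hcomm a b (fun h => hb h.symm)
    rw [commutatorElement_def] at h1
    have h2 : a * b = c * b * a := by rw [← h1]; group
    calc (b * a) ^ 2 = b * (a * b) * a := by rw [pow_two]; simp only [mul_assoc]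
      _ = b * (c * b * a) * a := by rw [h2]
      _ = (b * c) * b * (a ^ 2) := by rw [pow_two]; simp only [mul_assoc]
      _ = (c * b) * b * c := by rw [hcZ b, ha2]
      _ = c * (b ^ 2 * c) := by rw [pow_two]; simp only [mul_assoc]
      _ = c * (c * b ^ 2) := by rw [hcZ (b ^ 2)]
      _ = c ^ 2 * b ^ 2 := by rw [pow_two c, mul_assoc]
      _ = b ^ 2 := by rw [hcc, one_mul]
  by_cases hI : ∃ z ∈ Subgroup.center G, z ^ 2 = 1 ∧ z ∉ commutator G
  · obtain ⟨z, hzZ, hz2, hzG'⟩ := hI
    rw [Subgroup.mem_center_iff] at hzZ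
    refine ⟨x₀, z, hx₀, hzG', (hzZ x₀).symm, fun h _ => hzZ h, ?_⟩
    intro b _
    rw [(show Commute b z from hzZ b).mul_pow, hz2, mul_one]
  · push_neg at hI
    obtain ⟨y₀, hy₀⟩ : ∃ y₀, ¬ (y₀ * x₀ = x₀ * y₀) := by
      by_contra hcon
      push_neg at hcon
      exact hx₀ (Subgroup.mem_center_iff.mpr hcon)
    let cz : Subgroup.center G := ⟨c, hc hcG'⟩
    have hcz2 : cz * cz = 1 := by
      apply Subtype.ext
      rw [Subgroup.coe_mul, Subgroup.coe_one]
      show c * c = 1
      rw [← pow_two, hcc]
    have hcom : ∀ a b : Subgroup.center G, a * b = b * a :=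
      fun a b => Subtype.ext (Subgroup.mem_center_iff.mp b.2 a)
    let Q : Subgroup.center G →* Subgroup.center G :=
      MonoidHom.mk' (fun z : Subgroup.center G => z ^ 2)
        (fun a b => (show Commute a b from hcom a b).mul_pow 2)
    have hQapp : ∀ z, Q z = z ^ 2 := fun _ => rfl
    have hQker : (Q.ker : Set (Subgroup.center G)) ⊆ {1, cz} := by
      intro z hz
      have hz2 : z ^ 2 = 1 := hz
      have hz2' : (z : G) ^ 2 = 1 := by
        have h := congrArg Subtype.val hz2
        rwa [Subgroup.coe_pow, Subgroup.coe_one] at h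
      have hzG' := hI z z.2 hz2'
      by_cases hz1 : (z : G) = 1
      · left; exact Subtype.ext hz1
      · right; exact Subtype.ext (hall _ hzG' hz1)
    have hkcard : Nat.card Q.ker ≤ 2 := by
      have h1 : (Q.ker : Set (Subgroup.center G)).ncard ≤
          ({1, cz} : Set (Subgroup.center G)).ncard := Set.ncard_le_ncard hQker (Set.toFinite _)
      have h2 : ({1, cz} : Set (Subgroup.center G)).ncard ≤ 2 := by
        refine (Set.ncard_insert_le _ _).trans ?_
        rw [Set.ncard_singleton]
      have h3 : (Q.ker : Set (Subgroup.center G)).ncard = Nat.card Q.ker := by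
        rw [← Nat.card_coe_set_eq]; rfl
      omega
    have hidx : Q.range.index ≤ 2 := by
      have h1 := Subgroup.card_mul_index Q.range
      have h2 := Subgroup.card_mul_index Q.ker
      rw [Subgroup.index_ker] at h2
      have hpos : 0 < Nat.card Q.range := Nat.card_pos
      have h3 : Q.range.index = Nat.card Q.ker := by
        have h4 : Nat.card Q.range * Q.range.index = Nat.card Q.range * Nat.card Q.ker := by
          rw [h1, mul_comm, h2]
        exact Nat.eq_of_mul_eq_mul_left hpos h4
      omega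
    have hpig : ∀ w₁ w₂ : Subgroup.center G,
        w₁ ∈ Q.range ∨ w₂ ∈ Q.range ∨ w₁ * w₂ ∈ Q.range := by
      intro w₁ w₂
      have h0 : Q.range.index ≠ 0 := Subgroup.index_ne_zero_of_finite
      have h12 : Q.range.index = 1 ∨ Q.range.index = 2 := by omega
      rcases h12 with h1 | h2
      · left; rw [Subgroup.index_eq_one.mp h1]; trivial
      · by_cases hw1 : w₁ ∈ Q.range
        · left; exact hw1
        · by_cases hw2 : w₂ ∈ Q.range
          · right; left; exact hw2
          · right; right
            rw [Subgroup.mul_mem_iff_of_index_two h2]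
            exact ⟨fun h => absurd h hw1, fun h => absurd h hw2⟩
    have hxy : ⁅y₀, x₀⁆ = c := hcomm y₀ x₀ hy₀
    let u : Subgroup.center G := ⟨x₀ ^ 2, hsq x₀⟩
    let v : Subgroup.center G := ⟨y₀ ^ 2, hsq y₀⟩
    have fin2 : ∀ t : G, t ∉ Subgroup.center G → ∀ z : Subgroup.center G,
        (⟨t ^ 2, hsq t⟩ : Subgroup.center G) * z ^ 2 = cz →
        ∃ y a : G, y ∉ Subgroup.center G ∧ a ∉ commutator G ∧ a * y = y * a ∧
        (∀ h, h * y = y * h → h * a = a * h) ∧
        (∀ b, ¬ (b * y = y * b) → (b * a) ^ 2 = b ^ 2) := by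
      intro t ht z htz
      apply fin (t * z)
      · intro hmem
        apply ht
        have h := Subgroup.mul_mem _ hmem (Subgroup.inv_mem _ z.2)
        simpa using h
      · have hzc : Commute t (z : G) := (Subgroup.mem_center_iff.mp z.2 t)
        have h := congrArg Subtype.val htz
        rw [Subgroup.coe_mul, Subgroup.coe_pow] at h
        rw [hzc.mul_pow]
        exact h
    have hy₀Z : y₀ ∉ Subgroup.center G := by
      intro h
      rw [Subgroup.mem_center_iff] at h
      exact hy₀ (h x₀).symm
    have hxyZ : x₀ * y₀ ∉ Subgroup.center G := by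
      intro h
      rw [Subgroup.mem_center_iff] at h
      have h1 := h x₀
      rw [mul_assoc] at h1
      exact hy₀ (mul_left_cancel h1).symm
    rcases hpig (cz * u⁻¹) (cz * v⁻¹) with ⟨z, hz⟩ | ⟨z, hz⟩ | ⟨z, hz⟩
    · apply fin2 x₀ hx₀ z
      rw [← hQapp, hz]
      show u * (cz * u⁻¹) = cz
      rw [hcom cz u⁻¹, mul_inv_cancel_left]
    · apply fin2 y₀ hy₀Z z
      rw [← hQapp, hz]
      show v * (cz * v⁻¹) = cz
      rw [hcom cz v⁻¹, mul_inv_cancel_left]
    · apply fin2 (x₀ * y₀) hxyZ z
      rw [← hQapp, hz]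
      have h1 : (⟨(x₀ * y₀) ^ 2, hsq (x₀ * y₀)⟩ : Subgroup.center G) = u * v * cz := by
        apply Subtype.ext
        show (x₀ * y₀) ^ 2 = x₀ ^ 2 * y₀ ^ 2 * c
        rw [autorb_mul_pow hc, hxy]
        simp [Finset.sum_range_succ]
      rw [h1]
      calc u * v * cz * (cz * u⁻¹ * (cz * v⁻¹))
          = u * v * (cz * cz) * u⁻¹ * cz * v⁻¹ := by simp only [mul_assoc]
        _ = (u * v) * u⁻¹ * cz * v⁻¹ := by rw [hcz2, mul_one]
        _ = (v * u) * u⁻¹ * cz * v⁻¹ := by rw [hcom u v]
        _ = (v * cz) * v⁻¹ := by rw [mul_inv_cancel_right]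
        _ = (cz * v) * v⁻¹ := by rw [hcom v cz]
        _ = cz := by rw [mul_inv_cancel_right]

/-- The data for the extra automorphism. -/
theorem autorb_exists_data (hc : commutator G ≤ Subgroup.center G)
    (hcard : Nat.card (commutator G) = (Nat.card G).minFac)
    (hp : (Nat.card G).minFac.Prime) (x₀ : G) (hx₀ : x₀ ∉ Subgroup.center G) :
    ∃ y a : G, y ∉ Subgroup.center G ∧ a ∉ commutator G ∧ a * y = y * a ∧
      (∀ h, h * y = y * h → h * a = a * h) ∧
      (∀ b, ¬ (b * y = y * b) → (b * a) ^ (Nat.card G).minFac = b ^ (Nat.card G).minFac) := by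
  by_cases h2 : (Nat.card G).minFac = 2
  · rw [h2] at hcard ⊢
    exact autorb_exists_data_two hc hcard x₀ hx₀
  · apply autorb_exists_data_odd hc hcard hp _ x₀ hx₀
    intro hdvd
    exact h2 ((Nat.prime_dvd_prime_iff_eq Nat.prime_two hp).mp hdvd).symm

end

end Cfsg.Agent.Lib.Helper82
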