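import Mathlib
import Cfsg.Agent.Lib.Helper10.BT0
import Cfsg.Agent.Lib.Helper83.Ortho

/-!
# S4700 piece BT-K3 `perm_sq` (helper82 for helper10)

`Σ_ψ c_ψ² |N|² = Σ_g #{y ∈ N : g y g⁻¹ ∈ N}` by column orthogonality.
-/

set_option autoImplicit false

namespace Cfsg.Agent.Lib.Helper10.BT

open Cfsg
open Cfsg.Agent.Lib.Helper83 (trivIrr)
open Cfsg.Agent.Lib.Helper10.BR (psum DOut Tab)
open scoped ComplexConjugate

open scoped Classical in
/-- The number of `g` conjugating `b` to `a` (as an indicator sum). -/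
theorem perm_sq_count {G : Type*} [Group G] [Fintype G] (a b : G) :
    (∑ g : G, if g * b * g⁻¹ = a then (1 : ℂ) else 0) =
      if IsConj b a then (Nat.card (Subgroup.centralizer ({b} : Set G)) : ℂ) else 0 := by
  classical
  by_cases hab : IsConj b a
  · rw [if_pos hab]
    obtain ⟨k, hk⟩ := isConj_iff.1 hab
    rw [Finset.sum_boole]
    congr 1
    rw [← Fintype.card_subtype, ← Nat.card_eq_fintype_card]
    apply Nat.card_congr
    refine Equiv.subtypeEquiv (Equiv.mulLeft k⁻¹) (fun g => ?_)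
    rw [Equiv.coe_mulLeft, Subgroup.mem_centralizer_iff]
    constructor
    · intro h x hx
      rw [Set.mem_singleton_iff] at hx
      subst hx
      have h2 : g * x = k * x * k⁻¹ * g := by rw [hk, ← h]; group
      calc x * (k⁻¹ * g) = k⁻¹ * (k * x * k⁻¹ * g) := by group
        _ = k⁻¹ * (g * x) := by rw [h2]
        _ = k⁻¹ * g * x := by group
    · intro h
      have h2 := h b (Set.mem_singleton b)
      calc g * b * g⁻¹ = k * (k⁻¹ * g * b) * g⁻¹ := by group
        _ = k * (b * (k⁻¹ * g)) * g⁻¹ := by rw [h2]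
        _ = k * b * k⁻¹ := by group
        _ = a := hk
  · rw [if_neg hab]
    apply Finset.sum_eq_zero
    intro g _
    rw [if_neg]
    intro h
    exact hab (isConj_iff.2 ⟨g, h⟩)

/-- BT-K3 -/
theorem perm_sq {G : Type*} [Group G] [Fintype G] [Fintype (IrrCharacter G)]
    (N : Subgroup G) (c : IrrCharacter G → ℕ)
    (hc : ∀ ψ : IrrCharacter G, psum N (ψ : G → ℂ) 1 = (Nat.card N : ℂ) * (c ψ : ℂ)) :
    (∑ ψ : IrrCharacter G, c ψ ^ 2) * Nat.card N ^ 2 =
      ∑ g : G, Nat.card {y : G // y ∈ N ∧ g * y * g⁻¹ ∈ N} := by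
  classical
  -- `psum` as an indicator sum
  have hps : ∀ ψ : IrrCharacter G, psum N (ψ : G → ℂ) 1 =
      ∑ y : G, if y ∈ N then (ψ : G → ℂ) y else 0 := by
    intro ψ
    haveI : Fintype ↥N := Fintype.ofFinite _
    rw [Cfsg.Agent.Lib.Helper10.BR.psum_eq_sum]
    simp only [one_mul]
    rw [← Finset.sum_filter]
    exact (Finset.sum_subtype (Finset.univ.filter (· ∈ N)) (by simp) _).symm
  -- the indicator
  set F : G → G → G → ℂ := fun y y' g =>
    if (y ∈ N ∧ y' ∈ N ∧ g * y' * g⁻¹ = y) then (1 : ℂ) else 0 with hF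
  -- Step A
  have hA : ∑ ψ : IrrCharacter G, psum N (ψ : G → ℂ) 1 * conj (psum N (ψ : G → ℂ) 1) =
      ∑ y : G, ∑ y' : G, ∑ g : G, F y y' g := by
    have h1 : ∀ ψ : IrrCharacter G, psum N (ψ : G → ℂ) 1 * conj (psum N (ψ : G → ℂ) 1) =
        ∑ y : G, ∑ y' : G, (if y ∈ N then (ψ : G → ℂ) y else 0) *
          conj (if y' ∈ N then (ψ : G → ℂ) y' else 0) := by
      intro ψ
      rw [hps ψ, map_sum, Finset.sum_mul_sum]
    rw [Finset.sum_congr rfl (fun ψ _ => h1 ψ), Finset.sum_comm]
    refine Finset.sum_congr rfl (fun y _ => ?_)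
    rw [Finset.sum_comm]
    refine Finset.sum_congr rfl (fun y' _ => ?_)
    by_cases hy : y ∈ N
    · by_cases hy' : y' ∈ N
      · simp only [if_pos hy, if_pos hy']
        rw [Cfsg.Agent.Lib.Helper83.column_orthogonality y y', ← perm_sq_count y y']
        refine Finset.sum_congr rfl (fun g _ => ?_)
        simp only [hF, hy, hy', true_and]
      · simp only [if_neg hy', map_zero, mul_zero, Finset.sum_const_zero]
        symm
        apply Finset.sum_eq_zero
        intro g _
        simp only [hF]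
        rw [if_neg]
        intro hh
        exact hy' hh.2.1
    · simp only [if_neg hy, zero_mul, Finset.sum_const_zero]
      symm
      apply Finset.sum_eq_zero
      intro g _
      simp only [hF]
      rw [if_neg]
      intro hh
      exact hy hh.1
  -- Step B
  have hB : ∑ y : G, ∑ y' : G, ∑ g : G, F y y' g =
      ∑ g : G, (Nat.card {y : G // y ∈ N ∧ g * y * g⁻¹ ∈ N} : ℂ) := by
    have hswap : ∑ y : G, ∑ y' : G, ∑ g : G, F y y' g = ∑ g : G, ∑ y' : G, ∑ y : G, F y y' g := by
      calc ∑ y : G, ∑ y' : G, ∑ g : G, F y y' g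
          = ∑ y : G, ∑ g : G, ∑ y' : G, F y y' g :=
            Finset.sum_congr rfl (fun y _ => Finset.sum_comm)
        _ = ∑ g : G, ∑ y : G, ∑ y' : G, F y y' g := Finset.sum_comm
        _ = ∑ g : G, ∑ y' : G, ∑ y : G, F y y' g :=
            Finset.sum_congr rfl (fun g _ => Finset.sum_comm)
    rw [hswap]
    refine Finset.sum_congr rfl (fun g _ => ?_)
    have h2 : ∀ y' : G, ∑ y : G, F y y' g =
        if (y' ∈ N ∧ g * y' * g⁻¹ ∈ N) then (1 : ℂ) else 0 := by
      intro y'
      by_cases h : y' ∈ N ∧ g * y' * g⁻¹ ∈ N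
      · rw [if_pos h, Finset.sum_eq_single (g * y' * g⁻¹)]
        · simp [hF, h.1, h.2]
        · intro y _ hy
          simp only [hF]
          rw [if_neg]
          intro hh
          exact hy hh.2.2.symm
        · intro hh
          exact absurd (Finset.mem_univ _) hh
      · rw [if_neg h]
        apply Finset.sum_eq_zero
        intro y _
        simp only [hF]
        rw [if_neg]
        intro hh
        exact h ⟨hh.2.1, by rw [hh.2.2]; exact hh.1⟩
    rw [Finset.sum_congr rfl (fun y' _ => h2 y'), Finset.sum_boole, ← Fintype.card_subtype,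
      ← Nat.card_eq_fintype_card]
  -- conclusion
  have hL : ∑ ψ : IrrCharacter G, psum N (ψ : G → ℂ) 1 * conj (psum N (ψ : G → ℂ) 1) =
      (((∑ ψ : IrrCharacter G, c ψ ^ 2) * Nat.card N ^ 2 : ℕ) : ℂ) := by
    push_cast
    rw [Finset.sum_mul]
    refine Finset.sum_congr rfl (fun ψ _ => ?_)
    rw [hc ψ, map_mul, Complex.conj_natCast, Complex.conj_natCast]
    ring
  have hfin : (((∑ ψ : IrrCharacter G, c ψ ^ 2) * Nat.card N ^ 2 : ℕ) : ℂ) =
      ((∑ g : G, Nat.card {y : G // y ∈ N ∧ g * y * g⁻¹ ∈ N} : ℕ) : ℂ) := by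
    rw [← hL, hA, hB]
    push_cast
    rfl
  exact_mod_cast hfin

end Cfsg.Agent.Lib.Helper10.BT
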