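import Mathlib
import Cfsg.Prelude.Def_Solvable
import Cfsg.Agent.Lib.Helper55.Basic
import Cfsg.Agent.Lib.Helper66.BaerP7
import Cfsg.Agent.Lib.Helper19.BaerP8b
import Cfsg.Agent.Lib.Helper64.BaerP9

/-!
# S4125 piece P10 (for helper80): one prime serves all `q`-elements
-/

set_option autoImplicit false

namespace Cfsg.Agent.Lib.Helper82

variable {G : Type*} [Group G] [Finite G]

theorem exists_unique_prime (q : ℕ) [Fact q.Prime]
    (hBaer : ∀ x : G, (∃ k : ℕ, orderOf x = q ^ k) → ∃ (r : ℕ) (a : ℕ), r.Prime ∧ (Subgroup.centralizer ({x} : Set G)).index = r ^ a) :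
    ∃ p : ℕ, p.Prime ∧ ∀ x : G, (∃ k : ℕ, orderOf x = q ^ k) → ∃ a : ℕ, (Subgroup.centralizer ({x} : Set G)).index = p ^ a := by
  have hq : q.Prime := Fact.out
  by_cases hA : ∃ y : G, (∃ k : ℕ, orderOf y = q ^ k) ∧
      (∃ b : ℕ, (Subgroup.centralizer ({y} : Set G)).index = q ^ b) ∧
      Subgroup.centralizer ({y} : Set G) ≠ ⊤
  · -- Case A
    obtain ⟨y, hy, hyi, hyn⟩ := hA
    refine ⟨q, hq, ?_⟩
    intro x hx
    obtain ⟨r, a, hr, hxi⟩ := hBaer x hx
    by_cases hrq : r = q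
    · exact ⟨a, by rw [hxi, hrq]⟩
    by_cases hxn : Subgroup.centralizer ({x} : Set G) = ⊤
    · exact ⟨0, by rw [hxn, Subgroup.index_top, pow_zero]⟩
    exfalso
    have hall : ∀ w : G, (∃ k : ℕ, orderOf w = q ^ k) → w ∈ Cfsg.pCore q G :=
      fun w hw => Cfsg.Agent.Lib.Helper19.mem_pCore_of_mixed q hBaer y hy hyi hyn w hw
    obtain ⟨Q⟩ : Nonempty (Sylow q G) := inferInstance
    have hQle : (Q : Subgroup G) ≤ Cfsg.pCore q G := by
      intro w hw
      apply hall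
      obtain ⟨k, hk⟩ := (IsPGroup.iff_orderOf.mp Q.isPGroup') ⟨w, hw⟩
      exact ⟨k, by rw [← hk, Subgroup.orderOf_mk]⟩
    have hQeq : (Q : Subgroup G) = Cfsg.pCore q G :=
      le_antisymm hQle (Cfsg.Agent.Lib.Helper55.pCore_le_sylow Q)
    have hQn : (Q : Subgroup G).Normal := by
      rw [hQeq]; exact Cfsg.Agent.Lib.Helper55.pCore_normal
    have hxQ : x ∈ Q := by
      show x ∈ (Q : Subgroup G)
      rw [hQeq]; exact hall x hx
    have hyQ : y ∈ Q := by
      show y ∈ (Q : Subgroup G)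
      rw [hQeq]; exact hall y hy
    exact Cfsg.Agent.Lib.Helper64.mixed_contra q hBaer Q hQn r hr hrq x hxQ ⟨a, hxi⟩ hxn y hyQ hyi hyn
  · -- Case B
    push_neg at hA
    by_cases hcen : ∀ x : G, (∃ k : ℕ, orderOf x = q ^ k) → Subgroup.centralizer ({x} : Set G) = ⊤
    · refine ⟨q, hq, ?_⟩
      intro x hx
      exact ⟨0, by rw [hcen x hx, Subgroup.index_top, pow_zero]⟩
    · push_neg at hcen
      obtain ⟨x0, hx0, hx0n⟩ := hcen
      obtain ⟨p, a, hp, hx0i⟩ := hBaer x0 hx0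
      have hpq : p ≠ q := by
        rintro rfl
        exact hx0n (hA x0 hx0 ⟨a, hx0i⟩)
      refine ⟨p, hp, ?_⟩
      intro y hy
      obtain ⟨r, b, hr, hyi⟩ := hBaer y hy
      by_cases hyn : Subgroup.centralizer ({y} : Set G) = ⊤
      · exact ⟨0, by rw [hyn, Subgroup.index_top, pow_zero]⟩
      by_cases hrp : r = p
      · exact ⟨b, by rw [hyi, hrp]⟩
      exfalso
      have hrq : r ≠ q := by
        rintro rfl
        exact hyn (hA y hy ⟨b, hyi⟩)
      rcases Cfsg.Agent.Lib.Helper66.unique_prime_off q hBaer p r hp hr (Ne.symm hrp) hpq hrq x0 y hx0 hy ⟨a, hx0i⟩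
        ⟨b, hyi⟩ with h | h
      · exact hx0n h
      · exact hyn h

end Cfsg.Agent.Lib.Helper82
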