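import Mathlib
import Cfsg.Agent.Lib.Helper84.GADefs
import Cfsg.Agent.Lib.Helper63.Hup2

/-! Project GA (S4840, helper84), piece DIM2: Huppert's theorem in dimension two with the order
bound of the exceptional case.  The proof is the proof of `Cfsg.Agent.Lib.Helper63.Hup2.dim_two`
(helper63) with a different last step. -/

set_option autoImplicit false

namespace Cfsg.Agent.Lib.Helper82.GA

universe u

open Cfsg.Agent.Lib.Helper84.GA
open Cfsg.Agent.Lib.Helper63.SemiLin Cfsg.Agent.Lib.Helper63.Hup1 Cfsg.Agent.Lib.Helper63.Hup4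
  Cfsg.Agent.Lib.Helper63.Hup2

theorem dim2 : Dim2Stmt.{u} := by
  intro q _ V _ _ _ _ G _ _ hsol ρ hρ htrans hV
  classical
  have hq : q.Prime := Fact.out
  haveI := hsol
  haveI : Finite (Module.End (ZMod q) V) := DFunLike.finite (V →ₗ[ZMod q] V)
  obtain ⟨v₀, hv₀⟩ := exists_ne (0 : V)
  let φ := toEnd (q := q) ρ
  have hfr : Module.finrank (ZMod q) V = 2 := by
    have := Module.natCard_eq_pow_finrank (K := ZMod q) (V := V)
    rw [hV, Nat.card_zmod] at this
    exact (Nat.pow_right_injective hq.two_le this).symm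
  let Z : Subgroup G :=
    { carrier := {g | ∃ c : ZMod q, φ g = c • (1 : Module.End (ZMod q) V)}
      mul_mem' := by
        rintro a b ⟨c, hc⟩ ⟨d, hd⟩
        exact ⟨c * d, by rw [map_mul, hc, hd, smul_mul_smul_comm, mul_one]⟩
      one_mem' := ⟨1, by rw [map_one, one_smul]⟩
      inv_mem' := by
        rintro a ⟨c, hc⟩
        have hc0 : c ≠ 0 := by
          rintro rfl
          rw [zero_smul] at hc
          have := toEnd_apply_inv ρ a v₀
          rw [show toEnd ρ a = (0 : Module.End (ZMod q) V) from hc] at this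
          exact hv₀ this.symm
        refine ⟨c⁻¹, ?_⟩
        have h1 : φ a * φ a⁻¹ = 1 := by rw [← map_mul, mul_inv_cancel, map_one]
        rw [hc, smul_mul_assoc, one_mul] at h1
        rw [← h1, smul_smul, inv_mul_cancel₀ hc0, one_smul] }
  have hZc : ∀ z ∈ Z, ∀ g : G, z * g = g * z := by
    rintro z ⟨c, hc⟩ g
    apply toEnd_injective ρ hρ
    rw [map_mul, map_mul]
    show φ z * φ g = φ g * φ z
    rw [hc, smul_mul_assoc, mul_smul_comm, one_mul, mul_one]
  haveI hZn : Z.Normal :=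
    ⟨fun z hz g => by rw [← hZc z hz g, mul_inv_cancel_right]; exact hz⟩
  have hZcard : Nat.card Z ∣ q - 1 := by
    let sc : Z → ZMod q := fun z => Classical.choose z.2
    have hsc : ∀ z : Z, φ (z : G) = sc z • (1 : Module.End (ZMod q) V) :=
      fun z => Classical.choose_spec z.2
    let f : Z →* ZMod q :=
      { toFun := sc
        map_one' := by
          apply smul_one_inj (V := V); rw [← hsc, Subgroup.coe_one, map_one, one_smul]
        map_mul' := fun a b => by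
          apply smul_one_inj (V := V)
          rw [← hsc, Subgroup.coe_mul, map_mul, hsc, hsc, smul_mul_smul_comm, mul_one] }
    have hfinj : Function.Injective f.toHomUnits := by
      intro a b hab
      have h1 : sc a = sc b := by
        have := congrArg (fun u : (ZMod q)ˣ => (u : ZMod q)) hab
        simp only [MonoidHom.coe_toHomUnits] at this
        exact this
      apply Subtype.ext
      apply toEnd_injective ρ hρ
      show φ a = φ b
      rw [hsc, hsc, h1]
    have := Subgroup.card_dvd_of_injective f.toHomUnits hfinj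
    rw [Nat.card_units, Nat.card_zmod] at this
    exact this
  have hGZ : ∃ g : G, g ∉ Z := by
    have hex : ∃ w : V, ∀ c : ZMod q, w ≠ c • v₀ := by
      by_contra hcon
      push Not at hcon
      have hsurj : Function.Surjective (fun c : ZMod q => c • v₀) := fun w => by
        obtain ⟨c, hc⟩ := hcon w; exact ⟨c, hc.symm⟩
      have := Nat.card_le_card_of_surjective _ hsurj
      rw [hV, Nat.card_zmod] at this
      nlinarith [hq.two_le]
    obtain ⟨w, hw⟩ := hex
    have hw0 : w ≠ 0 := fun h0 => hw 0 (by rw [h0, zero_smul])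
    obtain ⟨g, hg⟩ := htrans v₀ w hv₀ hw0
    refine ⟨g, ?_⟩
    rintro ⟨c, hc⟩
    apply hw c
    rw [← hg]
    have := congrArg (fun f : Module.End (ZMod q) V => f v₀) hc
    simp only [LinearMap.smul_apply, Module.End.one_apply] at this
    exact this
  by_cases hH : ∃ A : Subgroup G, A.Normal ∧ (∀ a ∈ A, ∀ b ∈ A, a * b = b * a) ∧ ¬ A ≤ Z
  · left
    obtain ⟨A, hAn, hAab, hAZ⟩ := hH
    haveI := hAn
    obtain ⟨a, haA, haZ⟩ := SetLike.not_le_iff_exists.mp hAZ
    apply sl_of_abelian ρ htrans A hAab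
    have hinj : Function.Injective (fun p : ZMod q × ZMod q =>
        (⟨p.1 • (1 : Module.End (ZMod q) V) + p.2 • φ a,
          add_mem (Subalgebra.smul_mem _ (one_mem _) _)
            (Subalgebra.smul_mem _ (mem_BA ρ A haA) _)⟩ : BA ρ A)) := by
      rintro ⟨c, d⟩ ⟨c', d'⟩ hcd
      have h1 : c • (1 : Module.End (ZMod q) V) + d • φ a = c' • 1 + d' • φ a :=
        congrArg Subtype.val hcd
      have hdd : d = d' := by
        by_contra hne
        apply haZ
        have h2 : (d - d') • φ a = (c' - c) • (1 : Module.End (ZMod q) V) := by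
          rw [sub_smul, sub_smul, sub_eq_sub_iff_add_eq_add, add_comm]
          exact h1
        refine ⟨(d - d')⁻¹ * (c' - c), ?_⟩
        rw [← smul_smul, ← h2, smul_smul, inv_mul_cancel₀ (sub_ne_zero.mpr hne), one_smul]
      subst hdd
      have hcc : c = c' := smul_one_inj (V := V) c c' (add_right_cancel h1)
      rw [hcc]
    have := Nat.card_le_card_of_injective _ hinj
    rw [Nat.card_prod, Nat.card_zmod] at this
    rw [hV, pow_two]; exact this
  push Not at hH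
  right
  obtain ⟨N, ⟨hNn, hNZ⟩, hNmin⟩ := Set.exists_min_image {N : Subgroup G | N.Normal ∧ ¬ N ≤ Z}
    (fun N => Nat.card N) (Set.toFinite _)
    ⟨⊤, inferInstance, fun h => by obtain ⟨g, hg⟩ := hGZ; exact hg (h (Subgroup.mem_top g))⟩
  haveI := hNn
  have hN' : ⁅N, N⁆ ≤ Z := by
    by_contra hcon
    have hle : ⁅N, N⁆ ≤ N := Subgroup.commutator_le_left N N
    have hcard := hNmin ⁅N, N⁆ ⟨Subgroup.commutator_normal N N, hcon⟩
    have heq := Subgroup.eq_of_le_of_card_ge hle hcard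
    haveI : Nontrivial N := by
      rw [Subgroup.nontrivial_iff_ne_bot]
      rintro rfl
      exact hNZ bot_le
    have hlt := Group.IsSolvable.commutator_lt_top_of_nontrivial N
    have h1 : (commutator N).map N.subtype = (⊤ : Subgroup N).map N.subtype := by
      rw [Subgroup.map_subtype_commutator, heq, ← MonoidHom.range_eq_map, Subgroup.range_subtype]
    exact (lt_top_iff_ne_top.mp hlt) (Subgroup.map_injective N.subtype_injective h1)
  have hNnab : ∃ x₁ ∈ N, ∃ x₂ ∈ N, x₁ * x₂ ≠ x₂ * x₁ := by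
    by_contra hcon
    push Not at hcon
    exact hNZ (hH N hNn hcon)
  obtain ⟨x₁, hx₁, x₂, hx₂, hx12⟩ := hNnab
  obtain ⟨z₀, hz₀⟩ : ∃ z₀ : G, z₀ = x₁ * x₂ * x₁⁻¹ * x₂⁻¹ := ⟨_, rfl⟩
  have hcommN : ∀ u ∈ N, ∀ x ∈ N, u * x * u⁻¹ * x⁻¹ ∈ Z := by
    intro u hu x hx
    apply hN'
    have := Subgroup.commutator_mem_commutator hu hx
    rwa [commutatorElement_def] at this
  have hz₀Z : z₀ ∈ Z := hz₀ ▸ hcommN x₁ hx₁ x₂ hx₂
  have hz₀1 : z₀ ≠ 1 := by
    intro h1
    apply hx12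
    have : x₁ * x₂ = (x₁ * x₂ * x₁⁻¹ * x₂⁻¹) * (x₂ * x₁) := by group
    rw [this, ← hz₀, h1, one_mul]
  have hdetZ : ∀ z ∈ Z, LinearEquiv.det (ρ z) = 1 → φ z = 1 ∨ φ z = -1 := by
    rintro z ⟨c, hc⟩ hdet
    have h1 : LinearMap.det (φ z) = 1 := by
      have := LinearEquiv.coe_det (ρ z)
      rw [hdet] at this
      exact this.symm
    rw [hc, LinearMap.det_smul, hfr] at h1
    have hdet1 : LinearMap.det (1 : Module.End (ZMod q) V) = 1 := LinearMap.det_id
    rw [hdet1, mul_one] at h1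
    have h2 : (c - 1) * (c + 1) = 0 := by linear_combination h1
    rcases mul_eq_zero.mp h2 with h3 | h3
    · left; rw [hc, sub_eq_zero.mp h3, one_smul]
    · right; rw [hc, eq_neg_of_add_eq_zero_left h3, neg_smul, one_smul]
  have hdetcomm : ∀ a b : G, LinearEquiv.det (ρ (a * b * a⁻¹ * b⁻¹)) = 1 := by
    intro a b
    rw [map_mul, map_mul, map_mul, map_inv, map_inv, map_mul, map_mul, map_mul, map_inv, map_inv]
    rw [mul_comm (LinearEquiv.det (ρ a)), mul_inv_cancel_right, mul_inv_cancel]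
  have hφz₀ : φ z₀ = -1 := by
    rcases hdetZ z₀ hz₀Z (by rw [hz₀]; exact hdetcomm x₁ x₂) with h | h
    · exfalso; apply hz₀1; apply toEnd_injective ρ hρ; rw [map_one]; exact h
    · exact h
  have h2 : (2 : ZMod q) ≠ 0 := by
    intro h20
    apply hz₀1
    apply toEnd_injective ρ hρ
    rw [map_one]
    show φ z₀ = 1
    rw [hφz₀]
    have : (2 : ZMod q) • (1 : Module.End (ZMod q) V) = 0 := by rw [h20, zero_smul]
    rw [two_smul] at this
    exact neg_eq_of_add_eq_zero_left this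
  have hq2 : q ≠ 2 := by
    intro hq2
    apply h2
    have : ((2 : ℕ) : ZMod q) = 0 := by rw [ZMod.natCast_eq_zero_iff, hq2]
    exact_mod_cast this
  have hZ2 : ∀ z ∈ Z, LinearEquiv.det (ρ z) = 1 → z = 1 ∨ z = z₀ := by
    intro z hz hdet
    rcases hdetZ z hz hdet with h | h
    · left; apply toEnd_injective ρ hρ; rw [map_one]; exact h
    · right; apply toEnd_injective ρ hρ; show φ z = φ z₀; rw [hφz₀]; exact h
  have hanti : φ x₁ * φ x₂ = -(φ x₂ * φ x₁) := by
    have : x₁ * x₂ = z₀ * (x₂ * x₁) := by rw [hz₀]; group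
    rw [← map_mul, this, map_mul, hφz₀, neg_one_mul, map_mul]
  have hcent : ∀ g : G, g * x₁ = x₁ * g → g * x₂ = x₂ * g → g ∈ Z := by
    intro g h1 h2'
    exact anticomm_scalar hfr h2 (φ x₁) (φ x₂) (φ x₁⁻¹) (φ x₂⁻¹)
      (by rw [← map_mul, mul_inv_cancel, map_one]) (by rw [← map_mul, mul_inv_cancel, map_one])
      hanti (φ g) (by rw [← map_mul, ← map_mul, h1]) (by rw [← map_mul, ← map_mul, h2'])
  have hz₀c : ∀ g : G, z₀ * g = g * z₀ := hZc z₀ hz₀Z
  have hz₀sq : z₀ * z₀ = 1 := by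
    apply toEnd_injective ρ hρ
    rw [map_mul, map_one]
    show φ z₀ * φ z₀ = 1
    rw [hφz₀, neg_mul_neg, one_mul]
  -- the commutator pairing
  have hκ1 : ∀ u x : G, u * x * u⁻¹ * x⁻¹ = 1 → u * x = x * u := by
    intro u x h
    have : u * x = (u * x * u⁻¹ * x⁻¹) * (x * u) := by group
    rw [this, h, one_mul]
  have hκmul : ∀ u ∈ N, ∀ v ∈ N, ∀ x ∈ N, (u * v) * x * (u * v)⁻¹ * x⁻¹ =
      (u * x * u⁻¹ * x⁻¹) * (v * x * v⁻¹ * x⁻¹) := by
    intro u hu v hv x hx
    have h1 := hZc _ (hcommN v hv x hx) u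
    have h2' : (u * v) * x * (u * v)⁻¹ * x⁻¹ =
        (u * (v * x * v⁻¹ * x⁻¹)) * (x * u⁻¹ * x⁻¹) := by group
    rw [h2', ← h1]
    have h3 := hZc _ (hcommN v hv x hx) (u * x * u⁻¹ * x⁻¹)
    rw [← h3]; group
  have hcoset : ∀ u ∈ N, ∀ t ∈ N, u * x₁ * u⁻¹ * x₁⁻¹ = t * x₁ * t⁻¹ * x₁⁻¹ →
      u * x₂ * u⁻¹ * x₂⁻¹ = t * x₂ * t⁻¹ * x₂⁻¹ → u * t⁻¹ ∈ Z := by
    intro u hu t ht h1 h2'
    have key : ∀ x ∈ N, u * x * u⁻¹ * x⁻¹ = t * x * t⁻¹ * x⁻¹ →
        (u * t⁻¹) * x = x * (u * t⁻¹) := by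
      intro x hx hux
      apply hκ1
      rw [hκmul u hu t⁻¹ (inv_mem ht) x hx, hux, ← hκmul t ht t⁻¹ (inv_mem ht) x hx]
      group
    exact hcent _ (key x₁ hx₁ h1) (key x₂ hx₂ h2')
  have hx21 : x₂ * x₁ * x₂⁻¹ * x₁⁻¹ = z₀ := by
    have : x₂ * x₁ * x₂⁻¹ * x₁⁻¹ = (x₁ * x₂ * x₁⁻¹ * x₂⁻¹)⁻¹ := by group
    rw [this, ← hz₀]
    exact inv_eq_of_mul_eq_one_left hz₀sq
  have hNcos : ∀ u ∈ N, u * (1 : G)⁻¹ ∈ Z ∨ u * x₁⁻¹ ∈ Z ∨ u * x₂⁻¹ ∈ Z ∨ u * (x₂ * x₁)⁻¹ ∈ Z := by
    intro u hu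
    have ha := hZ2 _ (hcommN u hu x₁ hx₁) (hdetcomm u x₁)
    have hb := hZ2 _ (hcommN u hu x₂ hx₂) (hdetcomm u x₂)
    rcases ha with ha | ha <;> rcases hb with hb | hb
    · left
      apply hcoset u hu 1 (one_mem _)
      · rw [ha]; group
      · rw [hb]; group
    · right; left
      apply hcoset u hu x₁ hx₁
      · rw [ha]; group
      · rw [hb, hz₀]
    · right; right; left
      apply hcoset u hu x₂ hx₂
      · rw [ha, hx21]
      · rw [hb]; group
    · right; right; right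
      apply hcoset u hu (x₂ * x₁) (mul_mem hx₂ hx₁)
      · rw [ha, hκmul x₂ hx₂ x₁ hx₁ x₁ hx₁, hx21]; group
      · rw [hb, hκmul x₂ hx₂ x₁ hx₁ x₂ hx₂, ← hz₀]; group
  -- the quotient N / (Z ∩ N)
  let D' : Subgroup N := Z.subgroupOf N
  haveI : D'.Normal := Subgroup.normal_subgroupOf
  have hQcard : Nat.card (N ⧸ D') ≤ 4 := by
    let tt : Fin 4 → N := ![1, ⟨x₁, hx₁⟩, ⟨x₂, hx₂⟩, ⟨x₂ * x₁, mul_mem hx₂ hx₁⟩]
    have hsurj : Function.Surjective (fun i : Fin 4 => ((tt i : N) : N ⧸ D')) := by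
      intro ub
      obtain ⟨u, rfl⟩ := QuotientGroup.mk_surjective ub
      have hmk : ∀ t : N, (u : G) * (t : G)⁻¹ ∈ Z → ((t : N) : N ⧸ D') = (u : N ⧸ D') := by
        intro t ht
        rw [QuotientGroup.eq, Subgroup.mem_subgroupOf]
        have e : ((t⁻¹ * u : N) : G) = (t : G)⁻¹ * ((u : G) * (t : G)⁻¹) * ((t : G)⁻¹)⁻¹ := by
          rw [Subgroup.coe_mul, Subgroup.coe_inv]; group
        rw [e]
        exact hZn.conj_mem _ ht _
      rcases hNcos u u.2 with h | h | h | h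
      · exact ⟨0, hmk 1 h⟩
      · exact ⟨1, hmk ⟨x₁, hx₁⟩ h⟩
      · exact ⟨2, hmk ⟨x₂, hx₂⟩ h⟩
      · exact ⟨3, hmk ⟨x₂ * x₁, mul_mem hx₂ hx₁⟩ h⟩
    have := Nat.card_le_card_of_surjective _ hsurj
    rw [Nat.card_fin] at this
    exact this
  have hmap : ∀ h : G, D'.map ((MulAut.conjNormal h : N ≃* N) : N →* N) = D' := by
    intro h
    ext x
    rw [Subgroup.mem_map]
    constructor
    · rintro ⟨y, hy, rfl⟩
      rw [Subgroup.mem_subgroupOf] at hy ⊢
      show ((MulAut.conjNormal h y : N) : G) ∈ Z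
      rw [MulAut.conjNormal_apply]
      exact hZn.conj_mem _ hy _
    · intro hx
      refine ⟨MulAut.conjNormal h⁻¹ x, ?_, ?_⟩
      · rw [Subgroup.mem_subgroupOf] at hx ⊢
        rw [MulAut.conjNormal_apply]
        exact hZn.conj_mem _ hx _
      · apply Subtype.ext
        show ((MulAut.conjNormal h (MulAut.conjNormal h⁻¹ x) : N) : G) = x
        rw [MulAut.conjNormal_apply, MulAut.conjNormal_apply]; group
  let Ψ : G →* MulAut (N ⧸ D') :=
    { toFun := fun h => QuotientGroup.congr D' D' (MulAut.conjNormal h) (hmap h)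
      map_one' := by
        ext xb
        obtain ⟨x, rfl⟩ := QuotientGroup.mk_surjective xb
        show QuotientGroup.congr D' D' (MulAut.conjNormal 1) (hmap 1) (x : N ⧸ D') = (x : N ⧸ D')
        rw [QuotientGroup.congr_mk]
        congr 1
        apply Subtype.ext
        rw [MulAut.conjNormal_apply]; group
      map_mul' := fun a b => by
        ext xb
        obtain ⟨x, rfl⟩ := QuotientGroup.mk_surjective xb
        show QuotientGroup.congr D' D' (MulAut.conjNormal (a * b)) (hmap (a * b)) (x : N ⧸ D') =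
          QuotientGroup.congr D' D' (MulAut.conjNormal a) (hmap a)
            (QuotientGroup.congr D' D' (MulAut.conjNormal b) (hmap b) (x : N ⧸ D'))
        rw [QuotientGroup.congr_mk, QuotientGroup.congr_mk, QuotientGroup.congr_mk]
        congr 1
        apply Subtype.ext
        rw [MulAut.conjNormal_apply, MulAut.conjNormal_apply, MulAut.conjNormal_apply]; group }
  have hΨker : ∀ h : G, h ∈ Ψ.ker → ∀ x ∈ N, (h * x * h⁻¹)⁻¹ * x ∈ Z := by
    intro h hh x hx
    rw [MonoidHom.mem_ker] at hh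
    have h1 : Ψ h ((⟨x, hx⟩ : N) : N ⧸ D') = ((⟨x, hx⟩ : N) : N ⧸ D') := by rw [hh]; rfl
    have h2 : QuotientGroup.congr D' D' (MulAut.conjNormal h) (hmap h) ((⟨x, hx⟩ : N) : N ⧸ D') =
        ((⟨x, hx⟩ : N) : N ⧸ D') := h1
    rw [QuotientGroup.congr_mk, QuotientGroup.eq, Subgroup.mem_subgroupOf] at h2
    have e : (((MulAut.conjNormal h (⟨x, hx⟩ : N))⁻¹ * (⟨x, hx⟩ : N) : N) : G) =
        (h * x * h⁻¹)⁻¹ * x := by
      rw [Subgroup.coe_mul, Subgroup.coe_inv, MulAut.conjNormal_apply]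
    rw [e] at h2
    exact h2
  have hTidx : Ψ.ker.index ∣ 6 := by
    rw [Subgroup.index_ker]
    exact (Subgroup.card_subgroup_dvd_card Ψ.range).trans (aut_card_dvd_six _ hQcard)
  have hZT : Z ≤ Ψ.ker := by
    intro z hz
    rw [MonoidHom.mem_ker]
    ext xb
    obtain ⟨x, rfl⟩ := QuotientGroup.mk_surjective xb
    show QuotientGroup.congr D' D' (MulAut.conjNormal z) (hmap z) (x : N ⧸ D') = (x : N ⧸ D')
    rw [QuotientGroup.congr_mk]
    congr 1
    apply Subtype.ext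
    rw [MulAut.conjNormal_apply, hZc z hz, mul_inv_cancel_right]
  -- signs
  have hsign : ∀ h ∈ Ψ.ker, ∀ x ∈ N, h * x = x * h ∨ h * x⁻¹ * h⁻¹ * x = z₀ := by
    intro h hh x hx
    have h1 := hΨker h hh x hx
    have e : (h * x * h⁻¹)⁻¹ * x = h * x⁻¹ * h⁻¹ * (x⁻¹)⁻¹ := by group
    rw [e] at h1
    rcases hZ2 _ h1 (hdetcomm h x⁻¹) with h3 | h3
    · left
      have := hκ1 _ _ h3
      have c : Commute h x⁻¹ := this
      have c' := c.inv_right
      rw [inv_inv] at c'
      exact c'.eq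
    · right
      rw [← h3]; group
  have hdiff : ∀ a ∈ Ψ.ker, ∀ b ∈ Ψ.ker, ∀ x ∈ N,
      (decide (a * x = x * a) = decide (b * x = x * b)) → (a⁻¹ * b) * x = x * (a⁻¹ * b) := by
    intro a ha b hb x hx hdec
    by_cases hax : a * x = x * a
    · have hbx : b * x = x * b := by
        by_contra hbx
        simp [hax, hbx] at hdec
      have c1 : Commute a x := hax
      have c2 : Commute b x := hbx
      exact (c1.inv_left.mul_left c2).eq
    · have hbx : ¬ b * x = x * b := by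
        intro hbx
        simp [hax, hbx] at hdec
      have h1 := (hsign a ha x hx).resolve_left hax
      have h2' := (hsign b hb x hx).resolve_left hbx
      have h3 : a * x⁻¹ * a⁻¹ = b * x⁻¹ * b⁻¹ := by
        have e1 : a * x⁻¹ * a⁻¹ = (a * x⁻¹ * a⁻¹ * x) * x⁻¹ := by group
        have e2 : b * x⁻¹ * b⁻¹ = (b * x⁻¹ * b⁻¹ * x) * x⁻¹ := by group
        rw [e1, e2, h1, h2']
      have c : Commute (a⁻¹ * b) x⁻¹ := by
        show (a⁻¹ * b) * x⁻¹ = x⁻¹ * (a⁻¹ * b)
        have e1 : (a⁻¹ * b) * x⁻¹ = a⁻¹ * (b * x⁻¹ * b⁻¹) * b := by group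
        rw [e1, ← h3]; group
      have c' := c.inv_right
      rw [inv_inv] at c'
      exact c'.eq
  let T₁ : Subgroup G := Ψ.ker ⊓ Subgroup.centralizer {x₁}
  have hT₁mem : ∀ g, g ∈ T₁ ↔ (g ∈ Ψ.ker ∧ g * x₁ = x₁ * g) := by
    intro g
    show (g ∈ Ψ.ker ∧ g ∈ Subgroup.centralizer {x₁}) ↔ _
    rw [Subgroup.mem_centralizer_iff]
    constructor
    · rintro ⟨h1, h2'⟩; exact ⟨h1, (h2' x₁ rfl).symm⟩
    · rintro ⟨h1, h2'⟩
      refine ⟨h1, ?_⟩
      intro y hy
      rw [Set.mem_singleton_iff] at hy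
      rw [hy]; exact h2'.symm
  have hr1 : T₁.relIndex Ψ.ker ≤ 2 := by
    have := relIndex_le_of_inj T₁ Ψ.ker (fun g : G => decide (g * x₁ = x₁ * g)) (by
      intro a ha b hb hab
      rw [hT₁mem]
      exact ⟨mul_mem (inv_mem ha) hb, hdiff a ha b hb x₁ hx₁ hab⟩)
    rw [Nat.card_eq_fintype_card, Fintype.card_bool] at this
    exact this
  have hr2 : Z.relIndex T₁ ≤ 2 := by
    have := relIndex_le_of_inj Z T₁ (fun g : G => decide (g * x₂ = x₂ * g)) (by
      intro a ha b hb hab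
      rw [hT₁mem] at ha hb
      apply hcent
      · have c1 : Commute a x₁ := ha.2
        have c2 : Commute b x₁ := hb.2
        exact (c1.inv_left.mul_left c2).eq
      · exact hdiff a ha.1 b hb.1 x₂ hx₂ hab)
    rw [Nat.card_eq_fintype_card, Fintype.card_bool] at this
    exact this
  have hZT₁ : Z ≤ T₁ := by
    intro z hz
    rw [hT₁mem]
    exact ⟨hZT hz, hZc z hz x₁⟩
  have hT₁T : T₁ ≤ Ψ.ker := inf_le_left
  have hcardG : Nat.card G = Nat.card Z * (Z.relIndex T₁ * T₁.relIndex Ψ.ker * Ψ.ker.index) := by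
    rw [Subgroup.relIndex_mul_relIndex Z T₁ Ψ.ker hZT₁ hT₁T, Subgroup.relIndex_mul_index hZT,
      Subgroup.card_mul_index]
  have hpos : Nat.card G ≠ 0 := Nat.card_pos.ne'
  have hr1' : T₁.relIndex Ψ.ker = 1 ∨ T₁.relIndex Ψ.ker = 2 := by
    have : T₁.relIndex Ψ.ker ≠ 0 := by
      intro h0
      rw [h0] at hcardG
      simp at hcardG
      exact hpos hcardG
    omega
  have hr2' : Z.relIndex T₁ = 1 ∨ Z.relIndex T₁ = 2 := by
    have : Z.relIndex T₁ ≠ 0 := by
      intro h0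
      rw [h0] at hcardG
      simp at hcardG
      exact hpos hcardG
    omega
  rw [hcardG]
  have h4 : Z.relIndex T₁ * T₁.relIndex Ψ.ker ∣ 4 := by
    rcases hr2' with h | h <;> rcases hr1' with h' | h' <;> rw [h, h'] <;> norm_num
  have h24 : Z.relIndex T₁ * T₁.relIndex Ψ.ker * Ψ.ker.index ∣ 4 * 6 := Nat.mul_dvd_mul h4 hTidx
  exact Nat.mul_dvd_mul hZcard h24

end Cfsg.Agent.Lib.Helper82.GA
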