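import Cfsg.Prelude.Def_JComponents
import Mathlib
import Cfsg.Agent.Lib.Helper78.JcDefs

/-! Project JC (S2946, owner helper78), piece OCPC: `omegaCenterOf` and `pCoreOf`. -/

set_option autoImplicit false

namespace Cfsg.Agent.Lib.Helper82.Jc

open scoped commutatorElement

variable {G : Type*} [Group G]

/-- the central involutions (and 1) of `X`, as a subgroup -/
def ocSub (X : Subgroup G) : Subgroup G where
  carrier := {z | z ∈ X ∧ (∀ x ∈ X, z * x = x * z) ∧ z * z = 1}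
  mul_mem' := by
    rintro a b ⟨haX, hac, ha2⟩ ⟨hbX, hbc, hb2⟩
    refine ⟨X.mul_mem haX hbX, ?_, ?_⟩
    · intro x hx
      calc a * b * x = a * (b * x) := by group
        _ = a * (x * b) := by rw [hbc x hx]
        _ = (a * x) * b := by group
        _ = (x * a) * b := by rw [hac x hx]
        _ = x * (a * b) := by group
    · calc a * b * (a * b) = a * (b * a) * b := by group
        _ = a * (a * b) * b := by rw [hbc a haX]
        _ = (a * a) * (b * b) := by group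
        _ = 1 := by rw [ha2, hb2, one_mul]
  one_mem' := ⟨X.one_mem, fun x _ => by simp, by simp⟩
  inv_mem' := by
    rintro a ⟨haX, hac, ha2⟩
    refine ⟨X.inv_mem haX, ?_, ?_⟩
    · intro x hx
      have h := hac x hx
      calc a⁻¹ * x = a⁻¹ * (x * a) * a⁻¹ := by group
        _ = a⁻¹ * (a * x) * a⁻¹ := by rw [h]
        _ = x * a⁻¹ := by group
    · calc a⁻¹ * a⁻¹ = (a * a)⁻¹ := by group
        _ = 1 := by rw [ha2, inv_one]

theorem mem_ocSub (X : Subgroup G) (z : G) :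
    z ∈ ocSub X ↔ z ∈ X ∧ (∀ x ∈ X, z * x = x * z) ∧ z * z = 1 := Iff.rfl

theorem oc_eq_ocSub (X : Subgroup G) : Cfsg.omegaCenterOf X = ocSub X := by
  apply le_antisymm
  · unfold Cfsg.omegaCenterOf Cfsg.omegaOne
    rw [Subgroup.closure_le]
    rintro x ⟨hx, hx2⟩
    rw [Subgroup.mem_inf] at hx
    refine ⟨hx.1, ?_, ?_⟩
    · intro y hy
      exact (Subgroup.mem_centralizer_iff.1 hx.2 y hy).symm
    · rw [← pow_two]; exact hx2
  · rintro z ⟨hzX, hzc, hz2⟩
    unfold Cfsg.omegaCenterOf Cfsg.omegaOne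
    apply Subgroup.subset_closure
    refine ⟨Subgroup.mem_inf.2 ⟨hzX, Subgroup.mem_centralizer_iff.2 fun h hh => (hzc h hh).symm⟩, ?_⟩
    rw [pow_two]; exact hz2

theorem oc_le (X : Subgroup G) : Cfsg.omegaCenterOf X ≤ X := by
  rw [oc_eq_ocSub]
  exact fun z hz => hz.1

theorem oc_comm (X : Subgroup G) (z : G) (hz : z ∈ Cfsg.omegaCenterOf X) (x : G) (hx : x ∈ X) :
    z * x = x * z := by
  rw [oc_eq_ocSub] at hz
  exact hz.2.1 x hx

theorem oc_sq (X : Subgroup G) (z : G) (hz : z ∈ Cfsg.omegaCenterOf X) : z * z = 1 := by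
  rw [oc_eq_ocSub] at hz
  exact hz.2.2

theorem oc_mem (X : Subgroup G) (z : G) (hz : z ∈ X) (hc : ∀ x ∈ X, z * x = x * z) (h2 : z * z = 1) :
    z ∈ Cfsg.omegaCenterOf X := by
  rw [oc_eq_ocSub]
  exact ⟨hz, hc, h2⟩

/-- if every `g ∈ N(K)` conjugates `H` into itself then `N(K) ≤ N(H)` -/
theorem normalizer_le_of_conj_mem (K H : Subgroup G)
    (h : ∀ g ∈ Subgroup.normalizer (K : Set G), ∀ x ∈ H, g * x * g⁻¹ ∈ H) :
    Subgroup.normalizer (K : Set G) ≤ Subgroup.normalizer (H : Set G) := by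
  intro g hg
  rw [Subgroup.mem_normalizer_iff]
  intro x
  refine ⟨fun hx => h g hg x hx, fun hx => ?_⟩
  have := h g⁻¹ (inv_mem hg) _ hx
  simpa [mul_assoc] using this

theorem oc_normalizer (X : Subgroup G) :
    Subgroup.normalizer (X : Set G) ≤ Subgroup.normalizer (Cfsg.omegaCenterOf X : Set G) := by
  apply normalizer_le_of_conj_mem
  intro g hg z hz
  rw [oc_eq_ocSub] at hz ⊢
  obtain ⟨hzX, hzc, hz2⟩ := hz
  refine ⟨(Subgroup.mem_normalizer_iff.1 hg z).1 hzX, ?_, ?_⟩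
  · intro x hx
    have hx' : g⁻¹ * x * g ∈ X := by
      have := (Subgroup.mem_normalizer_iff.1 (inv_mem hg) x).1 hx
      simpa using this
    have h := hzc _ hx'
    calc g * z * g⁻¹ * x = g * (z * (g⁻¹ * x * g)) * g⁻¹ := by group
      _ = g * ((g⁻¹ * x * g) * z) * g⁻¹ := by rw [h]
      _ = x * (g * z * g⁻¹) := by group
  · calc g * z * g⁻¹ * (g * z * g⁻¹) = g * (z * z) * g⁻¹ := by group
      _ = 1 := by rw [hz2]; group

theorem pc_le (K : Subgroup G) : Cfsg.pCoreOf 2 K ≤ K :=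
  Subgroup.map_subtype_le _

theorem pCore_normal_aux (p : ℕ) (H : Type*) [Group H] : (Cfsg.pCore p H).Normal :=
  Subgroup.sSup_normal _ (fun _ hK => hK.1)

theorem pCore_isPGroup_aux (p : ℕ) (H : Type*) [Group H] : IsPGroup p (Cfsg.pCore p H) :=
  Sylow.sSup_of_normal _ (fun _ hK => hK.2) (fun _ hK => hK.1)

theorem pc_pgroup [Finite G] (K : Subgroup G) : IsPGroup 2 ↥(Cfsg.pCoreOf 2 K) :=
  (pCore_isPGroup_aux 2 K).map _

/-- conjugation by an element of the normalizer, as an automorphism of `K` -/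
def conjNorm (K : Subgroup G) (g : G) (hg : g ∈ Subgroup.normalizer (K : Set G)) : K ≃* K where
  toFun x := ⟨g * x * g⁻¹, (Subgroup.mem_normalizer_iff.1 hg x).1 x.2⟩
  invFun x := ⟨g⁻¹ * x * g, by
    have := (Subgroup.mem_normalizer_iff.1 (inv_mem hg) x).1 x.2
    simpa using this⟩
  left_inv x := by
    apply Subtype.ext
    simp [mul_assoc]
  right_inv x := by
    apply Subtype.ext
    simp [mul_assoc]
  map_mul' x y := by
    apply Subtype.ext
    simp [mul_assoc]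

theorem pc_normalizer (K : Subgroup G) :
    Subgroup.normalizer (K : Set G) ≤ Subgroup.normalizer (Cfsg.pCoreOf 2 K : Set G) := by
  apply normalizer_le_of_conj_mem
  intro g hg x hx
  unfold Cfsg.pCoreOf at hx ⊢
  obtain ⟨y, hy, rfl⟩ := hx
  have hn : (Cfsg.pCore 2 K).Normal := pCore_normal_aux 2 K
  have hle : (Cfsg.pCore 2 K).map (conjNorm K g hg).toMonoidHom ≤ Cfsg.pCore 2 K :=
    le_sSup ⟨hn.map _ (conjNorm K g hg).surjective, (pCore_isPGroup_aux 2 K).map _⟩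
  refine ⟨conjNorm K g hg y, hle (Subgroup.mem_map_of_mem _ hy), rfl⟩

theorem pc_le_normalizer (K : Subgroup G) :
    K ≤ Subgroup.normalizer (Cfsg.pCoreOf 2 K : Set G) :=
  Subgroup.le_normalizer.trans (pc_normalizer K)

theorem pc_two_le [Finite G] (K : Subgroup G) (h3 : (Cfsg.pCoreOf 2 K).relIndex K = 3)
    (P : Subgroup G) (hP : P ≤ K) (h2 : IsPGroup 2 ↥P) : P ≤ Cfsg.pCoreOf 2 K := by
  set Q := Cfsg.pCoreOf 2 K with hQ
  have hQ2 : IsPGroup 2 Q := pc_pgroup K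
  have hPQ : IsPGroup 2 (P ⊔ Q : Subgroup G) :=
    IsPGroup.to_sup_of_normal_right' h2 hQ2 (hP.trans (pc_le_normalizer K))
  have hle : P ⊔ Q ≤ K := sup_le hP (pc_le K)
  have hmul : Q.relIndex (P ⊔ Q) * (P ⊔ Q).relIndex K = Q.relIndex K :=
    Subgroup.relIndex_mul_relIndex Q (P ⊔ Q) K le_sup_right hle
  obtain ⟨n, hn⟩ := IsPGroup.index hPQ (Q.subgroupOf (P ⊔ Q))
  have hn' : Q.relIndex (P ⊔ Q) = 2 ^ n := hn
  rw [h3, hn'] at hmul
  have hn0 : n = 0 := by
    by_contra hne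
    have h2dvd : 2 ∣ 2 ^ n * (P ⊔ Q).relIndex K :=
      Dvd.dvd.mul_right (dvd_pow_self 2 hne) _
    rw [hmul] at h2dvd
    omega
  rw [hn0, pow_zero] at hn'
  have := Subgroup.relIndex_eq_one.1 hn'
  exact le_sup_left.trans this

end Cfsg.Agent.Lib.Helper82.Jc
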