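import Mathlib
import Cfsg.Agent.Lib.Helper84.PQ3

/-!
# S4025 piece FUSION (for helper69): Burnside fusion for an abelian Sylow subgroup
-/

set_option autoImplicit false

namespace Cfsg.Agent.Lib.Helper82.SAF

theorem burnside_fusion {G : Type*} [Group G] [Finite G] {p : ℕ} [Fact p.Prime] (P : Sylow p G)
    (hP : ∀ a ∈ (P : Subgroup G), ∀ b ∈ (P : Subgroup G), a * b = b * a)
    (A B : Subgroup G) (hA : A ≤ P) (hB : B ≤ P) (g : G)
    (h : B = A.map (MulAut.conj g).toMonoidHom) :
    ∃ m ∈ Subgroup.normalizer ((P : Subgroup G) : Set G),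
      B = A.map (MulAut.conj m).toMonoidHom := by
  -- the centralizer of `B`
  have hPD : (P : Subgroup G) ≤ Subgroup.centralizer (B : Set G) := by
    intro u hu
    rw [Subgroup.mem_centralizer_iff]
    intro b hb
    exact hP b (hB hb) u hu
  have hi : ¬ p ∣ (P : Subgroup G).relIndex (Subgroup.centralizer (B : Set G)) := by
    intro hdvd
    exact P.not_dvd_index (hdvd.trans (Subgroup.relIndex_dvd_index_of_le hPD))
  have hm : ∀ u ∈ (P : Subgroup G), g * u * g⁻¹ ∈ Subgroup.centralizer (B : Set G) := by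
    intro u hu
    rw [Subgroup.mem_centralizer_iff]
    intro b hb
    rw [h] at hb
    obtain ⟨a, ha, rfl⟩ := hb
    have hau : a * u = u * a := hP a (hA ha) u hu
    simp only [MulEquiv.toMonoidHom_eq_coe, MonoidHom.coe_coe, MulAut.conj_apply]
    calc g * a * g⁻¹ * (g * u * g⁻¹) = g * (a * u) * g⁻¹ := by group
      _ = g * (u * a) * g⁻¹ := by rw [hau]
      _ = g * u * g⁻¹ * (g * a * g⁻¹) := by group
  obtain ⟨t, ht, htz⟩ := Cfsg.Agent.Lib.Helper84.PQ.fusion_normalizer p (P : Subgroup G)
    (Subgroup.centralizer (B : Set G)) hPD P.isPGroup' hi g hm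
  refine ⟨t⁻¹ * g, ?_, ?_⟩
  · rw [Subgroup.mem_normalizer_iff]
    intro z
    exact htz z
  · -- `t` centralizes `B`
    have htB : ∀ b ∈ B, t⁻¹ * b * t = b := by
      intro b hb
      have h1 : b * t = t * b := (Subgroup.mem_centralizer_iff.mp ht) b hb
      calc t⁻¹ * b * t = t⁻¹ * (b * t) := by group
        _ = t⁻¹ * (t * b) := by rw [h1]
        _ = b := by group
    ext x
    constructor
    · intro hx
      have hx' := hx
      rw [h] at hx'
      obtain ⟨a, ha, rfl⟩ := hx'
      refine ⟨a, ha, ?_⟩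
      have := htB _ hx
      simp only [MulEquiv.toMonoidHom_eq_coe, MonoidHom.coe_coe, MulAut.conj_apply] at this ⊢
      rw [← this]
      group
    · rintro ⟨a, ha, rfl⟩
      have hb : g * a * g⁻¹ ∈ B := by
        rw [h]
        exact ⟨a, ha, by simp [MulAut.conj_apply]⟩
      have := htB _ hb
      simp only [MulEquiv.toMonoidHom_eq_coe, MonoidHom.coe_coe, MulAut.conj_apply]
      have e : t⁻¹ * g * a * (t⁻¹ * g)⁻¹ = t⁻¹ * (g * a * g⁻¹) * t := by group
      rw [e, this]
      exact hb

end Cfsg.Agent.Lib.Helper82.SAF
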