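import Mathlib
import Cfsg.Prelude.Def_Solvable
import Cfsg.Prelude.Def_CaseTheorems
import Cfsg.Agent.Lib.Helper31.Basic

/-!
# S4025 piece KER (for helper69): `O_{p'}(M)` is the normal core of a complement of the normal
Sylow `p`-subgroup
-/

set_option autoImplicit false

namespace Cfsg.Agent.Lib.Helper82.SAF

theorem pPrimeCore_eq_normalCore {M : Type*} [Group M] [Finite M] (p : ℕ) [Fact p.Prime]
    (Q : Subgroup M) [Q.Normal] (hQ : IsPGroup p ↥Q) (hQi : ¬ p ∣ Q.index)
    (L : Subgroup M) (hL : Q.IsComplement' L) :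
    Cfsg.pPrimeCore p M = L.normalCore := by
  have hp : p.Prime := Fact.out
  have hcard : Nat.card Q * Nat.card L = Nat.card M := hL.card_mul
  have hLidx : Nat.card L = Q.index := by
    have h1 := Q.card_mul_index
    have hQpos : 0 < Nat.card Q := Nat.card_pos
    exact Nat.eq_of_mul_eq_mul_left hQpos (hcard.trans h1.symm)
  have hLcop : (Nat.card L).Coprime p := by
    rw [hLidx]
    exact ((Nat.Prime.coprime_iff_not_dvd hp).mpr hQi).symm
  apply le_antisymm
  · -- `K = O_{p'}(M) ≤ L`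
    set K := Cfsg.pPrimeCore p M with hK
    have hKcop : (Nat.card K).Coprime p := Cfsg.Agent.Lib.Helper31.pPrimeCore_coprime p
    have hTdvd : Nat.card ↥(L ⊔ K) ∣ Nat.card L * Nat.card K :=
      Cfsg.Agent.Lib.Helper31.card_sup_dvd L K
    have hTcop : (Nat.card ↥(L ⊔ K)).Coprime p :=
      Nat.Coprime.coprime_dvd_left hTdvd (Nat.Coprime.mul_left hLcop hKcop)
    -- `|T|` divides `|M| = |Q| * |L|` and is coprime to `|Q|`
    obtain ⟨n, hn⟩ := IsPGroup.iff_card.mp hQ
    have hTQ : (Nat.card ↥(L ⊔ K)).Coprime (Nat.card Q) := by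
      rw [hn]
      exact Nat.Coprime.pow_right n hTcop
    have hTM : Nat.card ↥(L ⊔ K) ∣ Nat.card Q * Nat.card L := by
      rw [hcard]
      exact Subgroup.card_subgroup_dvd_card _
    have hTL : Nat.card ↥(L ⊔ K) ∣ Nat.card L := hTQ.dvd_of_dvd_mul_left hTM
    have hLT : L ≤ L ⊔ K := le_sup_left
    have hle : Nat.card ↥(L ⊔ K) ≤ Nat.card L := Nat.le_of_dvd Nat.card_pos hTL
    have hTeq : L = L ⊔ K := Subgroup.eq_of_le_of_card_ge hLT hle
    have hKL : K ≤ L := by
      rw [hTeq]
      exact le_sup_right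
    exact Subgroup.normal_le_normalCore.mpr hKL
  · apply Cfsg.Agent.Lib.Helper31.le_pPrimeCore (Subgroup.normalCore_normal L)
    have hdvd : Nat.card ↥L.normalCore ∣ Nat.card L :=
      Subgroup.card_dvd_of_le (Subgroup.normalCore_le L)
    exact Nat.Coprime.coprime_dvd_left hdvd hLcop

end Cfsg.Agent.Lib.Helper82.SAF
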